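import Mathlib
import Cfsg.Prelude.Def_CaseTheorems
import Cfsg.Prelude.Def_OddOrderLocal
import Cfsg.Prelude.Def_PLocal
import Cfsg.Agent.Lib.Helper42.BlkDefs
import Cfsg.Agent.Lib.Helper3.ClassThree
import Cfsg.Agent.Lib.Helper3.Metacyclic

set_option autoImplicit false

namespace Cfsg.Agent.Lib.Helper41.Blk

open Subgroup Cfsg.Agent.Lib.Helper42.Blk Cfsg.Agent.Lib.Helper3

/-- in a group of prime order every nontrivial element generates -/
theorem mem_zpowers_of_ne_one {G : Type*} [Group G] {p : ℕ} [hp : Fact p.Prime] {g h : G}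
    (hg : g ^ p = 1) (hh : h ∈ zpowers g) (h1 : h ≠ 1) : g ∈ zpowers h := by
  obtain ⟨j, rfl⟩ := mem_zpowers_iff.mp hh
  have hpj : ¬ (p : ℤ) ∣ j := by
    rintro ⟨m, rfl⟩
    apply h1
    rw [zpow_mul, zpow_natCast, hg, one_zpow]
  have hcop : IsCoprime j (p : ℤ) :=
    ((Nat.prime_iff_prime_int.mp hp.out).coprime_iff_not_dvd.mpr hpj).symm
  obtain ⟨u, v, huv⟩ := hcop
  refine mem_zpowers_iff.mpr ⟨u, ?_⟩
  have : g = g ^ (u * j + v * p) := by rw [huv, zpow_one]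
  rw [← zpow_mul, mul_comm j u]
  conv_rhs => rw [this]
  rw [zpow_add, zpow_mul g v, zpow_natCast]
  have : (g ^ v) ^ p = 1 := by rw [← zpow_natCast, ← zpow_mul, mul_comm, zpow_mul, zpow_natCast, hg, one_zpow]
  rw [this, mul_one]

theorem exists_pow_of_mem_zpowers {G : Type*} [Group G] [Finite G] {g h : G}
    (hh : h ∈ zpowers g) : ∃ m : ℕ, h = g ^ m := by
  obtain ⟨m, hm⟩ := Submonoid.mem_powers_iff _ _ |>.mp (mem_powers_iff_mem_zpowers.mpr hh)
  exact ⟨m, hm.symm⟩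

/-- RUNG B8 -/
theorem caseII_final {G : Type*} [Group G] [Finite G] {p : ℕ} [Fact p.Prime]
    {N : Subgroup G} {x z₀ : G} (F : Frame p N x) (Z : ZData N x z₀) (n : ℕ)
    (hG : Nat.card G = p ^ n) (c : G)
    (hc : InC1 N x c) (hcz : ps x c ∉ Subgroup.zpowers z₀)
    (hs : ∀ w ∈ Subgroup.centralizer (N : Set G), ∃ a b : ℕ, w = c ^ a * (ps x c) ^ b) :
    4 ≤ n ∧ ∃ (s : ℕ) (x y z : G), (s = 1 ∨ ¬ IsSquare (s : ZMod p)) ∧
      Subgroup.closure ({x, y, z} : Set G) = ⊤ ∧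
      x ^ p = 1 ∧ y ^ p = 1 ∧ z ^ p ^ (n - 2) = 1 ∧ y * z = z * y ∧
      x⁻¹ * y * x = y * z ^ (s * p ^ (n - 3)) ∧ x⁻¹ * z * x = y * z := by
  classical
  have hp : p.Prime := Fact.out
  obtain ⟨y, hy⟩ : ∃ y, y = ps x c := ⟨_, rfl⟩
  rw [← hy] at hcz hs
  have hyN : y ∈ N := hy ▸ hc.2
  have hcC : c ∈ centralizer (N : Set G) := hc.1
  obtain ⟨z₁, hz₁⟩ : ∃ z₁, z₁ = ps x y := ⟨_, rfl⟩
  have hz₁z : z₁ ∈ zpowers z₀ := hz₁ ▸ Z.comm_mem y hyN
  have hz₁1 : z₁ ≠ 1 := fun h => hcz (Z.fix y hyN (hz₁ ▸ h))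
  have hz₁c : z₁ ∈ center G := (zpowers_le.mpr Z.central) hz₁z
  have hcx : c * x = x * c * y := by rw [hy, ps]; group
  have hyx : y * x = x * y * z₁ := by rw [hz₁, ps]; group
  have hNc : ∀ v ∈ N, v * c = c * v := fun v hv => mem_centralizer_iff.mp hcC v hv
  have hyc : y * c = c * y := hNc y hyN
  have hyp : y ^ p = 1 := F.exp y hyN
  have hz₀p : z₀ ^ p = 1 := F.exp z₀ Z.memN
  have hz₁N : z₁ ∈ N := (zpowers_le.mpr Z.memN) hz₁z
  have hz₁p : z₁ ^ p = 1 := F.exp z₁ hz₁N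
  have hxp : x ^ p = 1 := F.xp
  have hcm : ∀ m : ℕ, c ^ m * x = x * c ^ m * y ^ m :=
    fun m => pow_mul_comm_of_central hcx (show Commute y c from hyc) m
  obtain ⟨k, hk⟩ := (IsPGroup.iff_orderOf.mp F.pgroup) c
  have hck : c ^ p ^ k = 1 := by rw [← hk]; exact pow_orderOf_eq_one c
  have hk2 : 2 ≤ k := by
    by_contra hlt
    have hk1 : k ≤ 1 := by omega
    have hcp : c ^ p = 1 := by
      apply orderOf_dvd_iff_pow_eq_one.mp
      rw [hk]
      calc p ^ k ∣ p ^ 1 := pow_dvd_pow p hk1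
        _ = p := pow_one p
    exact hcz (hy ▸ Z.comm_mem c (F.omega c hcC hcp))
  -- the element of order `p` in `⟨c⟩`
  obtain ⟨c₀, hc₀⟩ : ∃ c₀, c₀ = c ^ p ^ (k - 1) := ⟨_, rfl⟩
  have hc₀p : c₀ ^ p = 1 := by
    rw [hc₀, ← pow_mul, ← pow_succ, show k - 1 + 1 = k by omega, hck]
  have hc₀1 : c₀ ≠ 1 := by
    rw [hc₀]
    apply pow_ne_one_of_lt_orderOf (pow_pos hp.pos _).ne'
    rw [hk]
    exact Nat.pow_lt_pow_right hp.one_lt (by omega)
  have hc₀C : c₀ ∈ centralizer (N : Set G) := hc₀ ▸ pow_mem hcC _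
  have hc₀N : c₀ ∈ N := F.omega c₀ hc₀C hc₀p
  have hc₀x : ps x c₀ = 1 := by
    have h1 := hcm (p ^ (k - 1))
    have h2 : y ^ p ^ (k - 1) = 1 := by
      obtain ⟨j, hj⟩ : ∃ j, k - 1 = j + 1 := ⟨k - 2, by omega⟩
      rw [hj, pow_succ', pow_mul, hyp, one_pow]
    rw [h2, mul_one, ← hc₀] at h1
    rw [ps, mul_assoc, mul_assoc, h1]; group
  have hc₀z : c₀ ∈ zpowers z₀ := Z.fix c₀ hc₀N hc₀x
  have hz₀c₀ : z₀ ∈ zpowers c₀ := mem_zpowers_of_ne_one hz₀p hc₀z hc₀1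
  obtain ⟨t, ht⟩ := exists_pow_of_mem_zpowers ((zpowers_le.mpr hz₀c₀) hz₁z)
  have hpt : ¬ p ∣ t := by
    rintro ⟨m, rfl⟩
    apply hz₁1
    rw [ht, pow_mul, hc₀p, one_pow]
  have hoc₀ : orderOf c₀ = p := orderOf_eq_prime hc₀p hc₀1
  -- the order of `G`
  have hyC : y ∈ centralizer (N : Set G) :=
    mem_centralizer_iff.mpr fun v hv => F.comm v hv y hyN
  have hyzc : y ∉ zpowers c := by
    intro h
    obtain ⟨m, hm⟩ := exists_pow_of_mem_zpowers h
    have h1 := hcm m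
    rw [← hm, hyx] at h1
    have h2 : z₁ = y ^ m := mul_left_cancel h1
    have h3 : y ∈ zpowers z₁ :=
      mem_zpowers_of_ne_one hyp (h2 ▸ (zpowers y).pow_mem (mem_zpowers y) m) hz₁1
    exact hcz ((zpowers_le.mpr hz₁z) h3)
  have hlt1 : zpowers c < centralizer (N : Set G) :=
    lt_of_le_of_ne (zpowers_le.mpr hcC) fun h => hyzc (h ▸ hyC)
  have hlt2 : centralizer (N : Set G) < ⊤ :=
    lt_of_le_of_ne le_top fun h => F.xC (h ▸ mem_top x)
  have hlow : p ^ (k + 2) ≤ Nat.card G := by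
    have h1 := card_mul_le_of_lt F.pgroup hlt1
    have h2 := card_mul_le_of_lt F.pgroup hlt2
    rw [Nat.card_zpowers, hk] at h1
    rw [card_top] at h2
    calc p ^ (k + 2) = p * (p * p ^ k) := by ring
      _ ≤ p * Nat.card (centralizer (N : Set G)) := Nat.mul_le_mul_left p h1
      _ ≤ Nat.card G := h2
  have hdec : ∀ g : G, ∃ i a b : ℕ, g = x ^ i * c ^ a * y ^ b := by
    intro g
    obtain ⟨i, w, hw, rfl⟩ := F.decomp g
    obtain ⟨a, b, rfl⟩ := hs w hw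
    exact ⟨i, a, b, by simp only [mul_assoc]⟩
  have hup : Nat.card G ≤ p ^ (k + 2) := by
    let f : Fin p × Fin (p ^ k) × Fin p → G := fun u => x ^ (u.1 : ℕ) * c ^ (u.2.1 : ℕ) * y ^ (u.2.2 : ℕ)
    have hf : Function.Surjective f := by
      intro g
      obtain ⟨i, a, b, rfl⟩ := hdec g
      refine ⟨(⟨i % p, Nat.mod_lt _ hp.pos⟩, ⟨a % p ^ k, Nat.mod_lt _ (pow_pos hp.pos k)⟩,
        ⟨b % p, Nat.mod_lt _ hp.pos⟩), ?_⟩
      show x ^ (i % p) * c ^ (a % p ^ k) * y ^ (b % p) = _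
      rw [← pow_eq_pow_mod i hxp, ← pow_eq_pow_mod a hck, ← pow_eq_pow_mod b hyp]
    have h1 := Nat.card_le_card_of_surjective f hf
    have h2 : Nat.card (Fin p × Fin (p ^ k) × Fin p) = p ^ (k + 2) := by
      rw [Nat.card_prod, Nat.card_prod, Nat.card_eq_fintype_card, Nat.card_eq_fintype_card,
        Fintype.card_fin, Fintype.card_fin]
      ring
    rwa [h2] at h1
  have hn : n = k + 2 := by
    have h1 : p ^ n = p ^ (k + 2) := by rw [← hG]; exact le_antisymm hup hlow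
    exact Nat.pow_right_injective hp.two_le h1
  have hn2 : n - 2 = k := by omega
  have hn3 : n - 3 = k - 1 := by omega
  refine ⟨by omega, ?_⟩
  -- the general solution
  have key : ∀ a s : ℕ, ¬ p ∣ a → s ≡ t * (a * a) [MOD p] →
      (s = 1 ∨ ¬ IsSquare (s : ZMod p)) → ∃ (s : ℕ) (x y z : G), (s = 1 ∨ ¬ IsSquare (s : ZMod p)) ∧
      Subgroup.closure ({x, y, z} : Set G) = ⊤ ∧
      x ^ p = 1 ∧ y ^ p = 1 ∧ z ^ p ^ (n - 2) = 1 ∧ y * z = z * y ∧
      x⁻¹ * y * x = y * z ^ (s * p ^ (n - 3)) ∧ x⁻¹ * z * x = y * z := by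
    intro a s hpa hsa hsq
    obtain ⟨X, hX⟩ : ∃ X, X = x ^ a := ⟨_, rfl⟩
    obtain ⟨e, he⟩ : ∃ e, e = z₁ ^ (a.choose 2) := ⟨_, rfl⟩
    have hec : e ∈ center G := he ▸ pow_mem hz₁c _
    have heN : e ∈ N := he ▸ pow_mem hz₁N _
    obtain ⟨Y, hY⟩ : ∃ Y, Y = y ^ a * e := ⟨_, rfl⟩
    have hYN : Y ∈ N := hY ▸ mul_mem (pow_mem hyN _) heN
    have hcX : c * X = X * c * Y := by
      have := mul_pow_comm_class_three hcx hyx hz₁c a
      rw [hX, hY, he, this]; simp only [mul_assoc]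
    have hyX : y * X = X * y * z₁ ^ a := by
      rw [hX]
      exact mul_pow_comm_of_central hyx (show Commute z₁ x from (mem_center_iff.mp hz₁c x).symm) a
    have hyaX : y ^ a * X = X * y ^ a * (z₁ ^ a) ^ a :=
      pow_mul_comm_of_central hyX
        (show Commute (z₁ ^ a) y from (mem_center_iff.mp (pow_mem hz₁c a) y).symm) a
    have hYX : Y * X = X * Y * (z₁ ^ a) ^ a := by
      have h1 : e * X = X * e := (mem_center_iff.mp hec X).symm
      have h2 : e * (z₁ ^ a) ^ a = (z₁ ^ a) ^ a * e := (mem_center_iff.mp hec _).symm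
      calc Y * X = y ^ a * (e * X) := by rw [hY, mul_assoc]
        _ = (y ^ a * X) * e := by rw [h1, mul_assoc]
        _ = X * y ^ a * ((z₁ ^ a) ^ a * e) := by rw [hyaX]; simp only [mul_assoc]
        _ = X * Y * (z₁ ^ a) ^ a := by rw [← h2, hY]; simp only [mul_assoc]
    have hzz : (z₁ ^ a) ^ a = c ^ (s * p ^ (n - 3)) := by
      rw [hn3, mul_comm s, pow_mul, ← hc₀, ← pow_mul, ht, ← pow_mul]
      apply pow_eq_pow_iff_modEq.mpr
      rw [hoc₀]
      exact hsa.symm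
    refine ⟨s, X, Y, c, hsq, ?_, ?_, F.exp Y hYN, by rw [hn2]; exact hck, hNc Y hYN, ?_, ?_⟩
    · -- generation
      rw [eq_top_iff]
      intro g _
      have hXm : X ∈ closure ({X, Y, c} : Set G) := subset_closure (by simp)
      have hcm' : c ∈ closure ({X, Y, c} : Set G) := subset_closure (by simp)
      have hxm : x ∈ closure ({X, Y, c} : Set G) := by
        have hcop : Nat.Coprime a p := ((Nat.Prime.coprime_iff_not_dvd hp).mpr hpa).symm
        obtain ⟨m, -, hm⟩ := Nat.exists_mul_mod_eq_one_of_coprime hcop hp.one_lt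
        have : x = X ^ m := by
          rw [hX, ← pow_mul, pow_eq_pow_mod (a * m) hxp, hm, pow_one]
        rw [this]
        exact pow_mem hXm m
      have hym : y ∈ closure ({X, Y, c} : Set G) := by
        rw [hy, ps]
        exact mul_mem (mul_mem (mul_mem (inv_mem hcm') (inv_mem hxm)) hcm') hxm
      obtain ⟨i, a', b', rfl⟩ := hdec g
      exact mul_mem (mul_mem (pow_mem hxm _) (pow_mem hcm' _)) (pow_mem hym _)
    · rw [hX, ← pow_mul, mul_comm, pow_mul, hxp, one_pow]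
    · rw [mul_assoc, hYX, hzz]; group
    · rw [mul_assoc, hcX, hNc Y hYN]; group
  by_cases hsq : IsSquare (t : ZMod p)
  · obtain ⟨r, hr⟩ := hsq
    have ht0 : (t : ZMod p) ≠ 0 := fun h => hpt ((ZMod.natCast_eq_zero_iff t p).mp h)
    have hr0 : r ≠ 0 := by
      rintro rfl
      exact ht0 (by rw [hr, mul_zero])
    have ha : (((r⁻¹).val : ℕ) : ZMod p) = r⁻¹ := ZMod.natCast_zmod_val _
    refine key (r⁻¹).val 1 ?_ ?_ (Or.inl rfl)
    · intro h
      have := (ZMod.natCast_eq_zero_iff _ p).mpr h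
      rw [ha] at this
      exact inv_ne_zero hr0 this
    · apply (ZMod.natCast_eq_natCast_iff _ _ _).mp
      push_cast
      rw [ha, hr]
      field_simp
  · exact key 1 t (fun h => hp.one_lt.ne' (Nat.dvd_one.mp h)) (by simp [Nat.ModEq]) (Or.inr hsq)

end Cfsg.Agent.Lib.Helper41.Blk
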