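import Mathlib
import Cfsg.Prelude.Def_CaseTheorems
import Cfsg.Prelude.Def_OddOrderLocal
import Cfsg.Prelude.Def_PLocal
import Cfsg.Agent.Lib.Helper42.BlkDefs
import Cfsg.Agent.Lib.Helper3.ClassThree
import Cfsg.Agent.Lib.Helper3.Metacyclic
import Cfsg.Agent.Lib.Helper59.UniqueOdd
import Cfsg.Agent.Lib.Helper41.BlkB8

set_option autoImplicit false

namespace Cfsg.Agent.Lib.Helper41.Blk

open Subgroup Cfsg.Agent.Lib.Helper42.Blk Cfsg.Agent.Lib.Helper3

theorem comm_div {G : Type*} [Group G] {x w Y Zb : G} (hw : w * x = x * w * Zb)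
    (hY : Y * x = x * Y * Zb) : x * (w * Y⁻¹) = w * Y⁻¹ * x := by
  have h1 : Y⁻¹ * x = x * Zb⁻¹ * Y⁻¹ := by
    calc Y⁻¹ * x = Y⁻¹ * (x * Y * Zb) * Zb⁻¹ * Y⁻¹ := by group
      _ = Y⁻¹ * (Y * x) * Zb⁻¹ * Y⁻¹ := by rw [hY]
      _ = x * Zb⁻¹ * Y⁻¹ := by group
  calc x * (w * Y⁻¹) = (x * w * Zb) * Zb⁻¹ * Y⁻¹ := by group
    _ = (w * x) * Zb⁻¹ * Y⁻¹ := by rw [hw]
    _ = w * (x * Zb⁻¹ * Y⁻¹) := by group
    _ = w * (Y⁻¹ * x) := by rw [h1]
    _ = w * Y⁻¹ * x := by group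

/-- RUNG B5 -/
theorem caseI_final {G : Type*} [Group G] [Finite G] {p : ℕ} [Fact p.Prime]
    {N : Subgroup G} {x z₀ : G} (F : Frame p N x) (Z : ZData N x z₀) (n : ℕ)
    (hG : Nat.card G = p ^ n)
    (hI : ∀ c ∈ Subgroup.centralizer (N : Set G), ps x c ∈ Subgroup.zpowers z₀) :
    3 ≤ n ∧ ∃ x y z : G, Subgroup.closure ({x, y, z} : Set G) = ⊤ ∧ x ^ p = 1 ∧ y ^ p = 1 ∧
      z ^ p ^ (n - 2) = 1 ∧ x * z = z * x ∧ y * z = z * y ∧
      x⁻¹ * y * x = y * z ^ p ^ (n - 3) := by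
  classical
  have hp : p.Prime := Fact.out
  have hxp : x ^ p = 1 := F.xp
  have hz₀p : z₀ ^ p = 1 := F.exp z₀ Z.memN
  have hNC : N ≤ centralizer (N : Set G) := fun u hu =>
    mem_centralizer_iff.mpr fun v hv => F.comm v hv u hu
  have hmemA : ∀ g, g ∈ centralizer ({x} : Set G) ↔ x * g = g * x := by
    intro g
    rw [mem_centralizer_iff]
    simp only [Set.mem_singleton_iff, forall_eq]
  obtain ⟨D, hD⟩ : ∃ D : Subgroup G, D = centralizer (N : Set G) ⊓ centralizer ({x} : Set G) :=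
    ⟨_, rfl⟩
  have hmemD : ∀ g, g ∈ D ↔ g ∈ centralizer (N : Set G) ∧ x * g = g * x := by
    intro g
    rw [hD, mem_inf, hmemA]
  have hps1 : ∀ g, x * g = g * x → ps x g = 1 := by
    intro g hg
    rw [ps, mul_assoc, mul_assoc, ← hg]; group
  have hDz : ∀ g ∈ D, g ^ p = 1 → g ∈ zpowers z₀ := by
    intro g hg hgp
    obtain ⟨h1, h2⟩ := (hmemD g).mp hg
    exact Z.fix g (F.omega g h1 hgp) (hps1 g h2)
  have hDcyc : IsCyclic D := by
    apply Cfsg.Agent.Lib.Helper59.isCyclic_of_unique_odd F.odd (F.pgroup.to_subgroup D)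
    intro u v hu hv
    have hu' : (u : G) ^ p = 1 := by
      have := pow_orderOf_eq_one u
      rw [hu] at this
      exact_mod_cast congrArg (Subtype.val) this
    have hv' : (v : G) ^ p = 1 := by
      have := pow_orderOf_eq_one v
      rw [hv] at this
      exact_mod_cast congrArg (Subtype.val) this
    have hu1 : (u : G) ≠ 1 := by
      intro h
      have : u = 1 := Subtype.ext h
      rw [this, orderOf_one] at hu
      exact hp.one_lt.ne hu
    have h1 := hDz u u.2 hu'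
    have h2 := hDz v v.2 hv'
    have h3 : z₀ ∈ zpowers (u : G) := mem_zpowers_of_ne_one hz₀p h1 hu1
    have h4 : (v : G) ∈ zpowers (u : G) := (zpowers_le.mpr h3) h2
    obtain ⟨j, hj⟩ := mem_zpowers_iff.mp h4
    exact mem_zpowers_iff.mpr ⟨j, Subtype.ext (by simpa using hj)⟩
  obtain ⟨d', hd'⟩ := hDcyc.exists_generator
  obtain ⟨d, hd⟩ : ∃ d : G, d = d' := ⟨_, rfl⟩
  have hdD : d ∈ D := hd ▸ d'.2
  have hDd : ∀ g ∈ D, g ∈ zpowers d := by
    intro g hg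
    obtain ⟨j, hj⟩ := mem_zpowers_iff.mp (hd' ⟨g, hg⟩)
    refine mem_zpowers_iff.mpr ⟨j, ?_⟩
    have := congrArg (Subtype.val) hj
    rw [hd]
    simpa using this
  obtain ⟨hdC, hdx⟩ := (hmemD d).mp hdD
  have hz₀D : z₀ ∈ D := (hmemD z₀).mpr ⟨hNC Z.memN, mem_center_iff.mp Z.central x⟩
  obtain ⟨m, hm⟩ := (IsPGroup.iff_orderOf.mp F.pgroup) d
  have hdm : d ^ p ^ m = 1 := by rw [← hm]; exact pow_orderOf_eq_one d
  have hm1 : 1 ≤ m := by
    by_contra hlt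
    have hm0 : m = 0 := by omega
    rw [hm0, pow_zero, orderOf_eq_one_iff] at hm
    have := hDd z₀ hz₀D
    rw [hm, zpowers_one_eq_bot, mem_bot] at this
    exact Z.ne this
  obtain ⟨z₁, hz₁⟩ : ∃ z₁, z₁ = d ^ p ^ (m - 1) := ⟨_, rfl⟩
  have hz₁p : z₁ ^ p = 1 := by
    rw [hz₁, ← pow_mul, ← pow_succ, show m - 1 + 1 = m by omega, hdm]
  have hz₁1 : z₁ ≠ 1 := by
    rw [hz₁]
    apply pow_ne_one_of_lt_orderOf (pow_pos hp.pos _).ne'
    rw [hm]
    exact Nat.pow_lt_pow_right hp.one_lt (by omega)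
  have hz₁z : z₁ ∈ zpowers z₀ := hDz z₁ (hz₁ ▸ pow_mem hdD _) hz₁p
  have hz₁c : z₁ ∈ center G := (zpowers_le.mpr Z.central) hz₁z
  have hz₀z₁ : z₀ ∈ zpowers z₁ := mem_zpowers_of_ne_one hz₀p hz₁z hz₁1
  obtain ⟨k, hk⟩ := exists_pow_of_mem_zpowers hz₁z
  obtain ⟨v₀, hv₀N, hv₀⟩ := Z.surj
  have hv₀x : v₀ * x = x * v₀ * z₀ := by rw [← hv₀, ps]; group
  obtain ⟨y, hy⟩ : ∃ y, y = v₀ ^ k := ⟨_, rfl⟩
  have hyN : y ∈ N := hy ▸ pow_mem hv₀N k
  have hyp : y ^ p = 1 := F.exp y hyN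
  have hyx : y * x = x * y * z₁ := by
    rw [hy, hk]
    exact pow_mul_comm_of_central hv₀x
      (show Commute z₀ v₀ from (mem_center_iff.mp Z.central v₀).symm) k
  have hym : ∀ j : ℕ, y ^ j * x = x * y ^ j * z₁ ^ j :=
    fun j => pow_mul_comm_of_central hyx
      (show Commute z₁ y from (mem_center_iff.mp hz₁c y).symm) j
  have hyd : y * d = d * y := mem_centralizer_iff.mp hdC y hyN
  have hCdec : ∀ w ∈ centralizer (N : Set G), ∃ a b : ℕ, w = d ^ a * y ^ b := by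
    intro w hw
    obtain ⟨b, hb⟩ := exists_pow_of_mem_zpowers ((zpowers_le.mpr hz₀z₁) (hI w hw))
    have hwx : w * x = x * w * z₁ ^ b := by rw [← hb, ps]; group
    have heD : w * (y ^ b)⁻¹ ∈ D := by
      refine (hmemD _).mpr ⟨mul_mem hw (inv_mem (pow_mem (hNC hyN) b)), ?_⟩
      exact comm_div hwx (hym b)
    obtain ⟨a, ha⟩ := exists_pow_of_mem_zpowers (hDd _ heD)
    exact ⟨a, b, by rw [← ha]; group⟩
  have hyC : y ∈ centralizer (N : Set G) := hNC hyN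
  have hyzd : y ∉ zpowers d := by
    intro h
    have h1 : y ∈ D := (zpowers_le.mpr hdD) h
    have h2 := ((hmemD y).mp h1).2
    rw [h2] at hyx
    exact hz₁1 (left_eq_mul.mp hyx)
  have hlt1 : zpowers d < centralizer (N : Set G) :=
    lt_of_le_of_ne (zpowers_le.mpr hdC) fun h => hyzd (h ▸ hyC)
  have hlt2 : centralizer (N : Set G) < ⊤ :=
    lt_of_le_of_ne le_top fun h => F.xC (h ▸ mem_top x)
  have hlow : p ^ (m + 2) ≤ Nat.card G := by
    have h1 := card_mul_le_of_lt F.pgroup hlt1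
    have h2 := card_mul_le_of_lt F.pgroup hlt2
    rw [Nat.card_zpowers, hm] at h1
    rw [card_top] at h2
    calc p ^ (m + 2) = p * (p * p ^ m) := by ring
      _ ≤ p * Nat.card (centralizer (N : Set G)) := Nat.mul_le_mul_left p h1
      _ ≤ Nat.card G := h2
  have hdec : ∀ g : G, ∃ i a b : ℕ, g = x ^ i * d ^ a * y ^ b := by
    intro g
    obtain ⟨i, w, hw, rfl⟩ := F.decomp g
    obtain ⟨a, b, rfl⟩ := hCdec w hw
    exact ⟨i, a, b, by simp only [mul_assoc]⟩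
  have hup : Nat.card G ≤ p ^ (m + 2) := by
    let f : Fin p × Fin (p ^ m) × Fin p → G :=
      fun u => x ^ (u.1 : ℕ) * d ^ (u.2.1 : ℕ) * y ^ (u.2.2 : ℕ)
    have hf : Function.Surjective f := by
      intro g
      obtain ⟨i, a, b, rfl⟩ := hdec g
      refine ⟨(⟨i % p, Nat.mod_lt _ hp.pos⟩, ⟨a % p ^ m, Nat.mod_lt _ (pow_pos hp.pos m)⟩,
        ⟨b % p, Nat.mod_lt _ hp.pos⟩), ?_⟩
      show x ^ (i % p) * d ^ (a % p ^ m) * y ^ (b % p) = _
      rw [← pow_eq_pow_mod i hxp, ← pow_eq_pow_mod a hdm, ← pow_eq_pow_mod b hyp]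
    have h1 := Nat.card_le_card_of_surjective f hf
    have h2 : Nat.card (Fin p × Fin (p ^ m) × Fin p) = p ^ (m + 2) := by
      rw [Nat.card_prod, Nat.card_prod, Nat.card_eq_fintype_card, Nat.card_eq_fintype_card,
        Fintype.card_fin, Fintype.card_fin]
      ring
    rwa [h2] at h1
  have hn : n = m + 2 := by
    have h1 : p ^ n = p ^ (m + 2) := by rw [← hG]; exact le_antisymm hup hlow
    exact Nat.pow_right_injective hp.two_le h1
  have hn2 : n - 2 = m := by omega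
  have hn3 : n - 3 = m - 1 := by omega
  refine ⟨by omega, x, y, d, ?_, hxp, hyp, by rw [hn2]; exact hdm, hdx, hyd, ?_⟩
  · rw [eq_top_iff]
    intro g _
    obtain ⟨i, a, b, rfl⟩ := hdec g
    exact mul_mem (mul_mem (pow_mem (subset_closure (by simp)) _)
      (pow_mem (subset_closure (by simp)) _)) (pow_mem (subset_closure (by simp)) _)
  · rw [hn3, ← hz₁, mul_assoc, hyx]; group

end Cfsg.Agent.Lib.Helper41.Blk
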