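import Mathlib
import Cfsg.Prelude.Def_CaseTheorems
import Cfsg.Prelude.Def_OddOrderLocal
import Cfsg.Prelude.Def_PLocal
import Cfsg.Agent.Lib.Helper42.BlkDefs
import Cfsg.Agent.Lib.Helper3.ClassThree
import Cfsg.Agent.Lib.Helper3.Metacyclic
import Cfsg.Agent.Lib.Helper41.BlkB8

set_option autoImplicit false

namespace Cfsg.Agent.Lib.Helper41.Blk

open Subgroup Cfsg.Agent.Lib.Helper42.Blk Cfsg.Agent.Lib.Helper3

/-- `[[c,x],x]` is a power of the element of order `p` of `⟨c⟩` -/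
theorem caseII_setup {G : Type*} [Group G] [Finite G] {p : ℕ} [Fact p.Prime]
    {N : Subgroup G} {x z₀ : G} (F : Frame p N x) (Z : ZData N x z₀) (c : G)
    (hc : InC1 N x c) (hcz : ps x c ∉ Subgroup.zpowers z₀) :
    ∃ k t : ℕ, orderOf c = p ^ k ∧ 2 ≤ k ∧ ps x (ps x c) = (c ^ p ^ (k - 1)) ^ t := by
  classical
  have hp : p.Prime := Fact.out
  obtain ⟨y, hy⟩ : ∃ y, y = ps x c := ⟨_, rfl⟩
  rw [← hy] at hcz ⊢
  have hyN : y ∈ N := hy ▸ hc.2
  have hcC : c ∈ centralizer (N : Set G) := hc.1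
  obtain ⟨z₁, hz₁⟩ : ∃ z₁, z₁ = ps x y := ⟨_, rfl⟩
  rw [← hz₁]
  have hz₁z : z₁ ∈ zpowers z₀ := hz₁ ▸ Z.comm_mem y hyN
  have hcx : c * x = x * c * y := by rw [hy, ps]; group
  have hNc : ∀ v ∈ N, v * c = c * v := fun v hv => mem_centralizer_iff.mp hcC v hv
  have hyc : y * c = c * y := hNc y hyN
  have hyp : y ^ p = 1 := F.exp y hyN
  have hz₀p : z₀ ^ p = 1 := F.exp z₀ Z.memN
  have hcm : ∀ m : ℕ, c ^ m * x = x * c ^ m * y ^ m :=
    fun m => pow_mul_comm_of_central hcx (show Commute y c from hyc) m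
  obtain ⟨k, hk⟩ := (IsPGroup.iff_orderOf.mp F.pgroup) c
  have hck : c ^ p ^ k = 1 := by rw [← hk]; exact pow_orderOf_eq_one c
  have hk2 : 2 ≤ k := by
    by_contra hlt
    have hk1 : k ≤ 1 := by omega
    have hcp : c ^ p = 1 := by
      apply orderOf_dvd_iff_pow_eq_one.mp
      rw [hk]
      calc p ^ k ∣ p ^ 1 := pow_dvd_pow p hk1
        _ = p := pow_one p
    exact hcz (hy ▸ Z.comm_mem c (F.omega c hcC hcp))
  obtain ⟨c₀, hc₀⟩ : ∃ c₀, c₀ = c ^ p ^ (k - 1) := ⟨_, rfl⟩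
  have hc₀p : c₀ ^ p = 1 := by
    rw [hc₀, ← pow_mul, ← pow_succ, show k - 1 + 1 = k by omega, hck]
  have hc₀1 : c₀ ≠ 1 := by
    rw [hc₀]
    apply pow_ne_one_of_lt_orderOf (pow_pos hp.pos _).ne'
    rw [hk]
    exact Nat.pow_lt_pow_right hp.one_lt (by omega)
  have hc₀C : c₀ ∈ centralizer (N : Set G) := hc₀ ▸ pow_mem hcC _
  have hc₀N : c₀ ∈ N := F.omega c₀ hc₀C hc₀p
  have hc₀x : ps x c₀ = 1 := by
    have h1 := hcm (p ^ (k - 1))
    have h2 : y ^ p ^ (k - 1) = 1 := by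
      obtain ⟨j, hj⟩ : ∃ j, k - 1 = j + 1 := ⟨k - 2, by omega⟩
      rw [hj, pow_succ', pow_mul, hyp, one_pow]
    rw [h2, mul_one, ← hc₀] at h1
    rw [ps, mul_assoc, mul_assoc, h1]; group
  have hc₀z : c₀ ∈ zpowers z₀ := Z.fix c₀ hc₀N hc₀x
  have hz₀c₀ : z₀ ∈ zpowers c₀ := mem_zpowers_of_ne_one hz₀p hc₀z hc₀1
  obtain ⟨t, ht⟩ := exists_pow_of_mem_zpowers ((zpowers_le.mpr hz₀c₀) hz₁z)
  exact ⟨k, t, hk, hk2, by rw [← hc₀]; exact ht⟩

/-- RUNG B7 -/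
theorem caseII_omega {G : Type*} [Group G] [Finite G] {p : ℕ} [Fact p.Prime]
    {N : Subgroup G} {x z₀ : G} (F : Frame p N x) (Z : ZData N x z₀) (c : G)
    (hc : InC1 N x c) (hcz : ps x c ∉ Subgroup.zpowers z₀)
    (hs : ∀ w, InC1 N x w → ∃ a b : ℕ, w = c ^ a * (ps x c) ^ b)
    (h3 : p = 3 → c ^ 9 ≠ 1) :
    ∀ w, InC1 N x w → (x * w) ^ p = 1 → w ∈ N := by
  classical
  have hp : p.Prime := Fact.out
  obtain ⟨k, t, hk, hk2, ht⟩ := caseII_setup F Z c hc hcz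
  obtain ⟨y, hy⟩ : ∃ y, y = ps x c := ⟨_, rfl⟩
  rw [← hy] at hcz hs ht
  have hyN : y ∈ N := hy ▸ hc.2
  have hcC : c ∈ centralizer (N : Set G) := hc.1
  obtain ⟨z₁, hz₁⟩ : ∃ z₁, z₁ = ps x y := ⟨_, rfl⟩
  rw [← hz₁] at ht
  have hz₁z : z₁ ∈ zpowers z₀ := hz₁ ▸ Z.comm_mem y hyN
  have hz₁c : z₁ ∈ center G := (zpowers_le.mpr Z.central) hz₁z
  have hcx : c * x = x * c * y := by rw [hy, ps]; group
  have hyx : y * x = x * y * z₁ := by rw [hz₁, ps]; group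
  have hNc : ∀ v ∈ N, v * c = c * v := fun v hv => mem_centralizer_iff.mp hcC v hv
  have hyc : y * c = c * y := hNc y hyN
  have hyp : y ^ p = 1 := F.exp y hyN
  have hz₁N : z₁ ∈ N := (zpowers_le.mpr Z.memN) hz₁z
  have hz₁p : z₁ ^ p = 1 := F.exp z₁ hz₁N
  have hxp : x ^ p = 1 := F.xp
  have hcm : ∀ m : ℕ, c ^ m * x = x * c ^ m * y ^ m :=
    fun m => pow_mul_comm_of_central hcx (show Commute y c from hyc) m
  have hym : ∀ m : ℕ, y ^ m * x = x * y ^ m * z₁ ^ m :=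
    fun m => pow_mul_comm_of_central hyx
      (show Commute z₁ y from (mem_center_iff.mp hz₁c y).symm) m
  have hp3 : 3 ≤ p := by
    have := hp.two_le
    have := F.odd
    omega
  intro w hw hxw
  obtain ⟨a, b, hwab⟩ := hs w hw
  obtain ⟨c', hc'⟩ : ∃ c', c' = y ^ a * z₁ ^ b := ⟨_, rfl⟩
  have hc'N : c' ∈ N := hc' ▸ mul_mem (pow_mem hyN _) (pow_mem hz₁N _)
  have hwx : w * x = x * w * c' := by
    rw [hwab, hc']
    calc c ^ a * y ^ b * x = c ^ a * (y ^ b * x) := mul_assoc _ _ _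
      _ = c ^ a * (x * y ^ b * z₁ ^ b) := by rw [hym b]
      _ = (c ^ a * x) * y ^ b * z₁ ^ b := by simp only [mul_assoc]
      _ = x * c ^ a * y ^ a * y ^ b * z₁ ^ b := by rw [hcm a]
      _ = x * c ^ a * (y ^ a * y ^ b) * z₁ ^ b := by simp only [mul_assoc]
      _ = x * c ^ a * (y ^ b * y ^ a) * z₁ ^ b := by rw [← pow_add, add_comm, pow_add]
      _ = x * (c ^ a * y ^ b) * (y ^ a * z₁ ^ b) := by simp only [mul_assoc]
  have hc'x : c' * x = x * c' * z₁ ^ a := by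
    have h1 : z₁ ^ b * x = x * z₁ ^ b := (mem_center_iff.mp (pow_mem hz₁c b) x).symm
    rw [hc']
    calc y ^ a * z₁ ^ b * x = y ^ a * (z₁ ^ b * x) := mul_assoc _ _ _
      _ = (y ^ a * x) * z₁ ^ b := by rw [h1, mul_assoc]
      _ = x * y ^ a * (z₁ ^ a * z₁ ^ b) := by rw [hym a]; simp only [mul_assoc]
      _ = x * y ^ a * (z₁ ^ b * z₁ ^ a) := by rw [← pow_add, add_comm, pow_add]
      _ = x * (y ^ a * z₁ ^ b) * z₁ ^ a := by simp only [mul_assoc]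
  have hc'w : c' * w = w * c' * 1 := by
    rw [mul_one]
    exact mem_centralizer_iff.mp hw.1 c' hc'N
  have hpow := mul_pow_class_three_aux hwx hc'x hc'w (pow_mem hz₁c a) (one_mem _) p
  have hc'2 : c' ^ (p.choose 2) = 1 := by
    obtain ⟨m, hm⟩ := hp.dvd_choose_self (k := 2) (by norm_num) (by omega)
    rw [hm, pow_mul, F.exp c' hc'N, one_pow]
  have hwp : w ^ p = (c ^ a) ^ p := by
    have hcomm : Commute (c ^ a) (y ^ b) := ((show Commute c y from hyc.symm).pow_pow a b)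
    rw [hwab, hcomm.mul_pow, ← pow_mul y, mul_comm b p, pow_mul, hyp, one_pow, mul_one]
  rw [hxw, hxp, one_mul, one_pow, mul_one, hc'2, mul_one, hwp] at hpow
  suffices hcap : (c ^ a) ^ p = 1 by
    rw [hwab]
    exact mul_mem (F.omega _ (pow_mem hcC a) hcap) (pow_mem hyN b)
  by_cases hp3' : p = 3
  · have hc9 := h3 hp3'
    have hk3 : 3 ≤ k := by
      by_contra hlt
      apply hc9
      apply orderOf_dvd_iff_pow_eq_one.mp
      rw [hk, hp3']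
      calc 3 ^ k ∣ 3 ^ 2 := pow_dvd_pow 3 (by omega)
        _ = 9 := by norm_num
    obtain ⟨j, rfl⟩ : ∃ j, k = j + 3 := ⟨k - 3, by omega⟩
    have hch : p.choose 3 = 1 := by rw [hp3']; rfl
    rw [hch, pow_one, ht, ← pow_mul, ← pow_mul, ← pow_mul, ← pow_add] at hpow
    have hdvd := orderOf_dvd_iff_pow_eq_one.mpr hpow.symm
    rw [hk, hp3'] at hdvd
    have e1 : a * 3 + 3 ^ (j + 3 - 1) * (t * a) = (a * 3) * (1 + 3 ^ (j + 1) * t) := by
      rw [show j + 3 - 1 = (j + 1) + 1 by omega, pow_succ]; ring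
    rw [e1] at hdvd
    have hcop : Nat.Coprime (3 ^ (j + 3)) (1 + 3 ^ (j + 1) * t) := by
      apply Nat.Coprime.pow_left
      apply (Nat.Prime.coprime_iff_not_dvd Nat.prime_three).mpr
      intro h
      have : 3 ^ (j + 1) * t = 3 * (3 ^ j * t) := by ring
      omega
    have h4 := hcop.dvd_of_dvd_mul_right hdvd
    rw [← pow_mul, hp3']
    apply orderOf_dvd_iff_pow_eq_one.mp
    rw [hk, hp3']
    exact h4
  · have hz3 : (z₁ ^ a) ^ (p.choose 3) = 1 := by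
      obtain ⟨m, hm⟩ := hp.dvd_choose_self (k := 3) (by norm_num) (by omega)
      rw [hm, ← pow_mul, mul_comm, mul_assoc, pow_mul, hz₁p, one_pow]
    rw [hz3, mul_one] at hpow
    exact hpow.symm

end Cfsg.Agent.Lib.Helper41.Blk
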