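import Mathlib
import Cfsg.Prelude.Def_CaseTheorems
import Cfsg.Prelude.Def_OddOrderLocal
import Cfsg.Prelude.Def_PLocal
import Cfsg.Agent.Lib.Helper42.BlkDefs
import Cfsg.Agent.Lib.Helper3.ClassThree
import Cfsg.Agent.Lib.Helper3.Metacyclic
import Cfsg.Agent.Lib.Helper41.BlkB8
import Cfsg.Agent.S0112

set_option autoImplicit false

namespace Cfsg.Agent.Lib.Helper41.Blk

open Subgroup Cfsg.Agent.Lib.Helper42.Blk Cfsg.Agent.Lib.Helper3

/-- RUNG B9 -/
theorem caseII_max {G : Type*} [Group G] [Finite G] {p : ℕ} [Fact p.Prime]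
    {N : Subgroup G} {x z₀ : G} (F : Frame p N x) (Z : ZData N x z₀) (n : ℕ)
    (hG : Nat.card G = p ^ n) (c : G)
    (hc : InC1 N x c) (hcz : ps x c ∉ Subgroup.zpowers z₀)
    (hs : ∀ w, InC1 N x w → ∃ a b : ℕ, w = c ^ a * (ps x c) ^ b)
    (h9 : c ^ p ^ 2 = 1) : Group.nilpotencyClass G = n - 1 := by
  classical
  have hp : p.Prime := Fact.out
  obtain ⟨y, hy⟩ : ∃ y, y = ps x c := ⟨_, rfl⟩
  rw [← hy] at hcz hs
  have hyN : y ∈ N := hy ▸ hc.2
  have hcC : c ∈ centralizer (N : Set G) := hc.1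
  obtain ⟨z₁, hz₁⟩ : ∃ z₁, z₁ = ps x y := ⟨_, rfl⟩
  have hz₁z : z₁ ∈ zpowers z₀ := hz₁ ▸ Z.comm_mem y hyN
  have hz₁1 : z₁ ≠ 1 := fun h => hcz (Z.fix y hyN (hz₁ ▸ h))
  have hy1 : y ≠ 1 := fun h => hcz (h ▸ one_mem _)
  have hz₁c : z₁ ∈ center G := (zpowers_le.mpr Z.central) hz₁z
  have hcx : c * x = x * c * y := by rw [hy, ps]; group
  have hyx : y * x = x * y * z₁ := by rw [hz₁, ps]; group
  have hNc : ∀ v ∈ N, v * c = c * v := fun v hv => mem_centralizer_iff.mp hcC v hv
  have hyc : y * c = c * y := hNc y hyN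
  have hyp : y ^ p = 1 := F.exp y hyN
  have hz₀p : z₀ ^ p = 1 := F.exp z₀ Z.memN
  have hz₁N : z₁ ∈ N := (zpowers_le.mpr Z.memN) hz₁z
  have hz₁p : z₁ ^ p = 1 := F.exp z₁ hz₁N
  have hxp : x ^ p = 1 := F.xp
  have hcm : ∀ m : ℕ, c ^ m * x = x * c ^ m * y ^ m :=
    fun m => pow_mul_comm_of_central hcx (show Commute y c from hyc) m
  have hym : ∀ m : ℕ, y ^ m * x = x * y ^ m * z₁ ^ m :=
    fun m => pow_mul_comm_of_central hyx
      (show Commute z₁ y from (mem_center_iff.mp hz₁c y).symm) m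
  have hcpz : c ^ p ∈ zpowers z₀ := by
    have h1 : (c ^ p) ^ p = 1 := by rw [← pow_mul, ← sq]; exact h9
    have h2 : c ^ p ∈ N := F.omega _ (pow_mem hcC p) h1
    apply Z.fix _ h2
    have h3 := hcm p
    rw [hyp, mul_one] at h3
    rw [ps, mul_assoc, mul_assoc, h3]; group
  have hmem : ∀ g, x * g = g * x → ∃ i : ℕ, ∃ u ∈ zpowers z₀, g = x ^ i * u := by
    intro g hg
    obtain ⟨i, w, hw, rfl⟩ := F.decomp g
    have hwx : w * x = x * w := by
      have h1 : x ^ i * (x * w) = x ^ i * (w * x) := by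
        calc x ^ i * (x * w) = x * (x ^ i * w) := by
              rw [← mul_assoc, ← mul_assoc, ← pow_succ, ← pow_succ']
          _ = x ^ i * w * x := hg
          _ = x ^ i * (w * x) := mul_assoc _ _ _
      exact (mul_left_cancel h1).symm
    have hps : ps x w = 1 := by rw [ps, mul_assoc, mul_assoc, hwx]; group
    have hwC1 : InC1 N x w := ⟨hw, hps ▸ one_mem N⟩
    obtain ⟨a, b, hwab⟩ := hs w hwC1
    have hwx' : w * x = x * w * (y ^ a * z₁ ^ b) := by
      rw [hwab]
      calc c ^ a * y ^ b * x = c ^ a * (y ^ b * x) := mul_assoc _ _ _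
        _ = c ^ a * (x * y ^ b * z₁ ^ b) := by rw [hym b]
        _ = (c ^ a * x) * y ^ b * z₁ ^ b := by simp only [mul_assoc]
        _ = x * c ^ a * y ^ a * y ^ b * z₁ ^ b := by rw [hcm a]
        _ = x * c ^ a * (y ^ a * y ^ b) * z₁ ^ b := by simp only [mul_assoc]
        _ = x * c ^ a * (y ^ b * y ^ a) * z₁ ^ b := by rw [← pow_add, add_comm, pow_add]
        _ = x * (c ^ a * y ^ b) * (y ^ a * z₁ ^ b) := by simp only [mul_assoc]
    have h1 : y ^ a * z₁ ^ b = 1 := by
      rw [hwx] at hwx'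
      exact (left_eq_mul.mp hwx')
    have hya : y ^ a = 1 := by
      by_contra hne
      have h2 : y ∈ zpowers (y ^ a) :=
        mem_zpowers_of_ne_one hyp (pow_mem (mem_zpowers y) a) hne
      have h3 : y ^ a ∈ zpowers z₀ := by
        have : y ^ a = (z₁ ^ b)⁻¹ := eq_inv_of_mul_eq_one_left h1
        rw [this]; exact inv_mem (pow_mem hz₁z b)
      exact hcz ((zpowers_le.mpr h3) h2)
    have hzb : z₁ ^ b = 1 := by rwa [hya, one_mul] at h1
    have hpa : p ∣ a := by
      rw [← orderOf_eq_prime hyp hy1]; exact orderOf_dvd_of_pow_eq_one hya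
    have hpb : p ∣ b := by
      rw [← orderOf_eq_prime hz₁p hz₁1]; exact orderOf_dvd_of_pow_eq_one hzb
    obtain ⟨m, rfl⟩ := hpa
    obtain ⟨m', rfl⟩ := hpb
    refine ⟨i, w, ?_, rfl⟩
    rw [hwab, pow_mul, pow_mul, hyp, one_pow, mul_one]
    exact pow_mem hcpz m
  have hmemA : ∀ g, g ∈ centralizer ({x} : Set G) ↔ x * g = g * x := by
    intro g
    rw [mem_centralizer_iff]
    simp only [Set.mem_singleton_iff, forall_eq]
  have hxA : x ∈ centralizer ({x} : Set G) := (hmemA x).mpr rfl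
  have hz₀A : z₀ ∈ centralizer ({x} : Set G) :=
    (hmemA z₀).mpr (mem_center_iff.mp Z.central x)
  have hC : centralizer ((centralizer ({x} : Set G) : Subgroup G) : Set G)
      = centralizer ({x} : Set G) := by
    apply le_antisymm
    · intro g hg
      exact (hmemA g).mpr (mem_centralizer_iff.mp hg x hxA)
    · intro g hg
      rw [mem_centralizer_iff]
      intro h hh
      obtain ⟨i, u, hu, rfl⟩ := hmem g ((hmemA g).mp hg)
      obtain ⟨i', u', hu', rfl⟩ := hmem h ((hmemA h).mp hh)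
      have huc : u ∈ center G := (zpowers_le.mpr Z.central) hu
      have huc' : u' ∈ center G := (zpowers_le.mpr Z.central) hu'
      have c1 : Commute (x ^ i') (x ^ i) := (Commute.refl x).pow_pow _ _
      have c2 : Commute (x ^ i') u := (mem_center_iff.mp huc _)
      have c3 : Commute u' (x ^ i) := (mem_center_iff.mp huc' _).symm
      have c4 : Commute u' u := (mem_center_iff.mp huc' _).symm
      exact ((c1.mul_right c2).mul_left (c3.mul_right c4)).eq
  have hcard : Nat.card (centralizer ({x} : Set G)) = p ^ 2 := by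
    apply le_antisymm
    · let f : Fin p × Fin p → centralizer ({x} : Set G) := fun u =>
        ⟨x ^ (u.1 : ℕ) * z₀ ^ (u.2 : ℕ), mul_mem (pow_mem hxA _) (pow_mem hz₀A _)⟩
      have hf : Function.Surjective f := by
        rintro ⟨g, hg⟩
        obtain ⟨i, u, hu, rfl⟩ := hmem g ((hmemA g).mp hg)
        obtain ⟨j, rfl⟩ := exists_pow_of_mem_zpowers hu
        refine ⟨(⟨i % p, Nat.mod_lt _ hp.pos⟩, ⟨j % p, Nat.mod_lt _ hp.pos⟩), ?_⟩
        apply Subtype.ext
        show x ^ (i % p) * z₀ ^ (j % p) = _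
        rw [← pow_eq_pow_mod i hxp, ← pow_eq_pow_mod j hz₀p]
      have h1 := Nat.card_le_card_of_surjective f hf
      have h2 : Nat.card (Fin p × Fin p) = p ^ 2 := by
        rw [Nat.card_prod, Nat.card_eq_fintype_card, Fintype.card_fin]
        ring
      rwa [h2] at h1
    · have hlt : zpowers z₀ < centralizer ({x} : Set G) := by
        refine lt_of_le_of_ne (zpowers_le.mpr hz₀A) fun h => ?_
        have hxz : x ∈ zpowers z₀ := h ▸ hxA
        have hxN : x ∈ N := (zpowers_le.mpr Z.memN) hxz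
        exact F.xC (mem_centralizer_iff.mpr fun v hv => F.comm v hv x hxN)
      have h1 := card_mul_le_of_lt F.pgroup hlt
      rw [Nat.card_zpowers, orderOf_eq_prime hz₀p Z.ne] at h1
      calc p ^ 2 = p * p := sq p
        _ ≤ _ := h1
  exact Cfsg.Agent.S0112.result n hG _ hcard hC

end Cfsg.Agent.Lib.Helper41.Blk
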