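import Mathlib

/-!
# Ladder "HUP", rung N2 : the group theoretic part
-/

set_option autoImplicit false

namespace Cfsg.Agent.Lib.Helper41.Hup

open Subgroup

section fiber
variable {Q : Type*} [Group Q]

theorem n2_card_mul_relIndex (H K : Subgroup Q) (hHK : H ≤ K) :
    Nat.card H * H.relIndex K = Nat.card K := by
  have := relIndex_mul_relIndex ⊥ H K bot_le hHK
  rwa [relIndex_bot_left, relIndex_bot_left] at this

/-- if the cosets of `H` in `K` are separated by a function with values in a finite set `T`,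
then `|K : H| ≤ |T|` -/
theorem n2_fiber [Finite Q] {X : Type*} (H K : Subgroup Q) (hHK : H ≤ K) (T : Finset X)
    (f : Q → X) (hT : ∀ g ∈ K, f g ∈ T)
    (hf : ∀ g ∈ K, ∀ g' ∈ K, f g = f g' → g'⁻¹ * g ∈ H) :
    ∃ k, 1 ≤ k ∧ k ≤ T.card ∧ Nat.card K = k * Nat.card H := by
  refine ⟨H.relIndex K, ?_, ?_, ?_⟩
  · have h1 := n2_card_mul_relIndex H K hHK
    have h2 : 0 < Nat.card K := Nat.card_pos
    rcases Nat.eq_zero_or_pos (H.relIndex K) with h | h
    · rw [h, mul_zero] at h1
      omega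
    · exact h
  · have hmem : ∀ ξ : K ⧸ H.subgroupOf K, f ((Quotient.out ξ : K) : Q) ∈ T :=
      fun ξ => hT _ (Quotient.out ξ : K).2
    have hinj : Function.Injective
        (fun ξ : K ⧸ H.subgroupOf K => (⟨f ((Quotient.out ξ : K) : Q), hmem ξ⟩ : T)) := by
      intro ξ ξ' h
      have h1 : f ((Quotient.out ξ : K) : Q) = f ((Quotient.out ξ' : K) : Q) :=
        congrArg Subtype.val h
      have h2 := hf _ (Quotient.out ξ : K).2 _ (Quotient.out ξ' : K).2 h1
      rw [← QuotientGroup.out_eq' ξ, ← QuotientGroup.out_eq' ξ']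
      symm
      rw [QuotientGroup.eq]
      exact h2
    have := Nat.card_le_card_of_injective _ hinj
    rw [Nat.card_eq_fintype_card (α := T), Fintype.card_coe] at this
    exact this
  · rw [mul_comm]
    exact (n2_card_mul_relIndex H K hHK).symm

/-- a finite group with a self-centralizing normal four-group has order `4`, `8`, `12`, `16`
or `24` -/
theorem n2_chain [Finite Q] (G : Subgroup Q) (a b : Q) (ha : a ∈ G) (hb : b ∈ G)
    (hab : a * b = b * a) (ha1 : a ≠ 1) (hb1 : b ≠ 1) (hne : a ≠ b) (hab1 : a * b ≠ 1)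
    (h2a : ∀ g ∈ G, g * a * g⁻¹ = a ∨ g * a * g⁻¹ = b ∨ g * a * g⁻¹ = a * b)
    (h2b : ∀ g ∈ G, g * b * g⁻¹ = a ∨ g * b * g⁻¹ = b ∨ g * b * g⁻¹ = a * b)
    (h3 : ∀ g ∈ G, g * a = a * g → g * b = b * g → g = 1 ∨ g = a ∨ g = b ∨ g = a * b) :
    ∃ i j, 1 ≤ i ∧ i ≤ 3 ∧ 1 ≤ j ∧ j ≤ 2 ∧ Nat.card G = i * j * 4 := by
  classical
  have hconj : ∀ (x g g' : Q), g * x * g⁻¹ = g' * x * g'⁻¹ → (g'⁻¹ * g) * x = x * (g'⁻¹ * g) := by
    intro x g g' h
    calc (g'⁻¹ * g) * x = g'⁻¹ * (g * x * g⁻¹) * g := by group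
      _ = g'⁻¹ * (g' * x * g'⁻¹) * g := by rw [h]
      _ = x * (g'⁻¹ * g) := by group
  obtain ⟨i, hi1, hi3, hi⟩ := n2_fiber (G ⊓ centralizer {a}) G inf_le_left {a, b, a * b}
    (fun g => g * a * g⁻¹) (by
      intro g hg
      simp only [Finset.mem_insert, Finset.mem_singleton]
      exact h2a g hg) (by
      intro g hg g' hg' h
      refine mem_inf.2 ⟨G.mul_mem (G.inv_mem hg') hg, ?_⟩
      rw [mem_centralizer_singleton_iff]
      exact hconj a g g' h)
  obtain ⟨j, hj1, hj2, hj⟩ := n2_fiber (G ⊓ centralizer {a} ⊓ centralizer {b})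
    (G ⊓ centralizer {a}) inf_le_left {b, a * b}
    (fun g => g * b * g⁻¹) (by
      intro g hg
      simp only [Finset.mem_insert, Finset.mem_singleton]
      obtain ⟨hgG, hga⟩ := mem_inf.1 hg
      rw [mem_centralizer_singleton_iff] at hga
      rcases h2b g hgG with h | h | h
      · exfalso
        apply hne
        have h1 : g * a * g⁻¹ = a := by rw [hga]; group
        have h2 : g * a * g⁻¹ = g * b * g⁻¹ := by rw [h1, h]
        exact mul_left_cancel (mul_right_cancel h2)
      · exact Or.inl h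
      · exact Or.inr h) (by
      intro g hg g' hg' h
      refine mem_inf.2 ⟨(G ⊓ centralizer {a}).mul_mem ((G ⊓ centralizer {a}).inv_mem hg') hg, ?_⟩
      rw [mem_centralizer_singleton_iff]
      exact hconj b g g' h)
  have h4 : Nat.card (G ⊓ centralizer {a} ⊓ centralizer {b} : Subgroup Q) = 4 := by
    have hset : ((G ⊓ centralizer {a} ⊓ centralizer {b} : Subgroup Q) : Set Q)
        = (({1, a, b, a * b} : Finset Q) : Set Q) := by
      ext g
      simp only [SetLike.mem_coe, mem_inf, mem_centralizer_singleton_iff, Finset.coe_insert,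
        Finset.coe_singleton, Set.mem_insert_iff, Set.mem_singleton_iff]
      constructor
      · rintro ⟨⟨h1, h2⟩, h3'⟩
        exact h3 g h1 h2 h3'
      · rintro (rfl | rfl | rfl | rfl)
        · exact ⟨⟨G.one_mem, by simp⟩, by simp⟩
        · exact ⟨⟨ha, rfl⟩, hab⟩
        · exact ⟨⟨hb, hab.symm⟩, rfl⟩
        · refine ⟨⟨G.mul_mem ha hb, ?_⟩, ?_⟩
          · rw [mul_assoc, ← hab]
          · rw [mul_assoc, ← mul_assoc b a b, ← hab, mul_assoc]
    have h5 : Nat.card (G ⊓ centralizer {a} ⊓ centralizer {b} : Subgroup Q)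
        = ((G ⊓ centralizer {a} ⊓ centralizer {b} : Subgroup Q) : Set Q).ncard := rfl
    rw [h5, hset, Set.ncard_coe_finset]
    have hb' : b ≠ a * b := fun h => ha1 (by
      have : 1 * b = a * b := by rw [one_mul]; exact h
      exact (mul_right_cancel this).symm)
    have ha' : a ≠ a * b := fun h => hb1 (by
      have : a * 1 = a * b := by rw [mul_one]; exact h
      exact (mul_left_cancel this).symm)
    rw [Finset.card_insert_of_notMem, Finset.card_insert_of_notMem,
      Finset.card_insert_of_notMem, Finset.card_singleton]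
    · simpa using hb'
    · simp only [Finset.mem_insert, Finset.mem_singleton, not_or]
      exact ⟨hne, ha'⟩
    · simp only [Finset.mem_insert, Finset.mem_singleton, not_or]
      exact ⟨ha1.symm, hb1.symm, hab1.symm⟩
  refine ⟨i, j, hi1, hi3.trans Finset.card_le_three, hj1, hj2.trans Finset.card_le_two, ?_⟩
  rw [hi, hj, h4, mul_assoc]

end fiber

/-- the last term of the derived series of `G` which is not contained in `Z` -/
theorem n2_exists_last {Γ : Type*} [Group Γ] (G Z : Subgroup Γ) (hsol : Group.IsSolvable G)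
    (hG : ¬ G ≤ Z) :
    ∃ N : Subgroup Γ, N ≤ G ∧ (∀ g ∈ G, ∀ x ∈ N, g * x * g⁻¹ ∈ N) ∧
      (∀ x ∈ N, ∀ y ∈ N, x * y * x⁻¹ * y⁻¹ ∈ Z) ∧ ¬ N ≤ Z := by
  classical
  obtain ⟨n, hn⟩ := hsol.solvable
  have hex : ∃ k, (derivedSeries G k).map G.subtype ≤ Z := ⟨n, by rw [hn, Subgroup.map_bot]; exact bot_le⟩
  have h0 : Nat.find hex ≠ 0 := by
    intro h
    have h1 := Nat.find_spec hex
    rw [h, derivedSeries_zero, ← MonoidHom.range_eq_map, range_subtype] at h1
    exact hG h1
  obtain ⟨k, hk⟩ := Nat.exists_eq_succ_of_ne_zero h0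
  have hk1 : ¬ (derivedSeries G k).map G.subtype ≤ Z := Nat.find_min hex (by omega)
  have hk2 : (derivedSeries G (k + 1)).map G.subtype ≤ Z := by
    have := Nat.find_spec hex
    rwa [hk] at this
  refine ⟨(derivedSeries G k).map G.subtype, map_subtype_le _, ?_, ?_, hk1⟩
  · rintro g hg _ ⟨x, hx, rfl⟩
    have hnorm : (derivedSeries G k).Normal := inferInstance
    exact ⟨⟨g, hg⟩ * x * ⟨g, hg⟩⁻¹, hnorm.conj_mem x hx ⟨g, hg⟩, rfl⟩
  · rintro _ ⟨x, hx, rfl⟩ _ ⟨y, hy, rfl⟩
    apply hk2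
    refine ⟨x * y * x⁻¹ * y⁻¹, ?_, rfl⟩
    rw [derivedSeries_succ]
    exact commutator_mem_commutator hx hy

end Cfsg.Agent.Lib.Helper41.Hup
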