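import Mathlib
import Cfsg.Agent.Lib.Helper76.Hup.Defs
import Cfsg.Agent.Lib.Helper76.Hup.Basic
import Cfsg.Agent.Lib.Helper41.HupN2Grp

/-!
# Ladder "HUP", rung N2 : the two-dimensional case
-/

set_option autoImplicit false
set_option linter.unusedSectionVars false
set_option linter.style.haveILetI false

namespace Cfsg.Agent.Lib.Helper41.Hup

open Cfsg.Agent.Lib.Helper76.Hup

variable {q : ℕ} [Fact q.Prime] {V : Type*} [AddCommGroup V] [Module (ZMod q) V] [Finite V]

/-- two independent vectors span a space of order `q ^ 2` -/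
theorem n2_span (hV : Nat.card V = q ^ 2) (v w : V) (hv : v ≠ 0)
    (hw : ∀ c : ZMod q, w ≠ c • v) : ∀ u : V, ∃ α β : ZMod q, u = α • v + β • w := by
  have hinj : Function.Injective (fun p : ZMod q × ZMod q => p.1 • v + p.2 • w) := by
    rintro ⟨α, β⟩ ⟨α', β'⟩ h
    simp only at h
    have h1 : (β - β') • w = (α' - α) • v := by
      rw [sub_smul, sub_smul, sub_eq_sub_iff_add_eq_add, add_comm, h, add_comm]
    by_cases hβ : β = β'
    · subst hβ
      rw [sub_self, zero_smul] at h1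
      have h2 := (smul_eq_zero.1 h1.symm).resolve_right hv
      rw [sub_eq_zero.1 h2]
    · exfalso
      apply hw ((β - β')⁻¹ * (α' - α))
      rw [mul_smul, ← h1, smul_smul, inv_mul_cancel₀ (sub_ne_zero.2 hβ), one_smul]
  have hbij := hinj.bijective_of_nat_card_le (by
    rw [Nat.card_prod, Nat.card_zmod, hV, sq])
  intro u
  obtain ⟨⟨α, β⟩, h⟩ := hbij.2 u
  exact ⟨α, β, h.symm⟩

/-- the group of scalars -/
def scal : Subgroup (V ≃ₗ[ZMod q] V) :=
  (DistribMulAction.toModuleAut (ZMod q) V : (ZMod q)ˣ →* (V ≃ₗ[ZMod q] V)).range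

theorem mem_scal [Nontrivial V] {g : V ≃ₗ[ZMod q] V} :
    g ∈ (scal : Subgroup (V ≃ₗ[ZMod q] V)) ↔ ∃ c : ZMod q, ∀ v, g v = c • v := by
  constructor
  · rintro ⟨c, rfl⟩
    exact ⟨c, fun v => rfl⟩
  · rintro ⟨c, hc⟩
    have hc0 : c ≠ 0 := by
      rintro rfl
      obtain ⟨v, hv⟩ := exists_ne (0 : V)
      apply hv
      apply g.injective
      rw [hc v, zero_smul, map_zero]
    refine ⟨Units.mk0 c hc0, ?_⟩
    ext v
    exact (hc v).symm

theorem card_scal_dvd : Nat.card (scal : Subgroup (V ≃ₗ[ZMod q] V)) ∣ q - 1 := by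
  have h := Subgroup.card_range_dvd
    (DistribMulAction.toModuleAut (ZMod q) V : (ZMod q)ˣ →* (V ≃ₗ[ZMod q] V))
  rw [Nat.card_eq_fintype_card (α := (ZMod q)ˣ), ZMod.card_units] at h
  exact h

theorem scal_central [Nontrivial V] {s : V ≃ₗ[ZMod q] V} (hs : s ∈ (scal : Subgroup (V ≃ₗ[ZMod q] V)))
    (g : V ≃ₗ[ZMod q] V) : s * g = g * s := by
  obtain ⟨c, hc⟩ := mem_scal.1 hs
  ext v
  change s (g v) = g (s v)
  rw [hc, hc, map_smul]

/-- a map all of whose vectors are eigenvectors is a scalar -/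
theorem n2_scal_of_eigen [Nontrivial V] (g : V ≃ₗ[ZMod q] V) (h : ∀ v, ∃ c : ZMod q, g v = c • v) :
    g ∈ (scal : Subgroup (V ≃ₗ[ZMod q] V)) := by
  obtain ⟨c, hc⟩ := LinearMap.exists_eq_smul_id_of_forall_notLinearIndependent
    (f := g.toLinearMap) (by
      intro v hli
      obtain ⟨c, hc⟩ := h v
      rw [LinearIndependent.pair_iff] at hli
      have := (hli c (-1) (by
        change c • v + (-1 : ZMod q) • g v = 0
        rw [hc, neg_smul, one_smul, add_neg_cancel])).2
      exact one_ne_zero (neg_eq_zero.1 this))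
  rw [mem_scal]
  refine ⟨c, fun v => ?_⟩
  have := LinearMap.congr_fun hc v
  exact this

/-- abelian normal subgroups consist of scalars -/
theorem n2_scal_of_isAN [Nontrivial V] (hV : Nat.card V = q ^ 2) (G : Subgroup (V ≃ₗ[ZMod q] V))
    (htr : Trans G) (hno : ¬ HasIAN G) (A : Subgroup (V ≃ₗ[ZMod q] V)) (hA : IsAN G A) :
    A ≤ scal := by
  have hirr : ¬ Irr A := fun h => hno ⟨A, hA, h⟩
  unfold Irr at hirr
  push Not at hirr
  obtain ⟨W, hW, hbot, htop⟩ := hirr
  obtain ⟨w, hwW, hw0⟩ := (Submodule.ne_bot_iff W).1 hbot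
  have key : ∀ a ∈ A, ∃ c : ZMod q, a w = c • w := by
    intro a ha
    by_contra hcon
    push Not at hcon
    apply htop
    rw [eq_top_iff]
    intro u _
    obtain ⟨α, β, rfl⟩ := n2_span hV w (a w) hw0 hcon u
    exact W.add_mem (W.smul_mem _ hwW) (W.smul_mem _ (hW a ha w hwW))
  intro a ha
  apply n2_scal_of_eigen
  intro v
  by_cases hv : v = 0
  · exact ⟨0, by rw [hv, map_zero, smul_zero]⟩
  · obtain ⟨g, hg, rfl⟩ := htr w v hw0 hv
    have h1 := hA.2.1 g⁻¹ (G.inv_mem hg) a ha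
    rw [inv_inv] at h1
    obtain ⟨c, hc⟩ := key _ h1
    refine ⟨c, ?_⟩
    have h3 : g ((g⁻¹ * a * g) w) = a (g w) := by
      have : g ((g⁻¹ * a * g) w) = (g * (g⁻¹ * a * g)) w := rfl
      rw [this]
      have : g * (g⁻¹ * a * g) = a * g := by group
      rw [this]
      rfl
    rw [← h3, hc, map_smul]

/-- the centralizer of two anticommuting maps consists of scalars -/
theorem n2_scal_of_commute [Nontrivial V] (hV : Nat.card V = q ^ 2) (h2 : (2 : ZMod q) ≠ 0)
    (a b c : V ≃ₗ[ZMod q] V) (hab : ∀ v, a (b v) = -(b (a v)))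
    (hca : c * a = a * c) (hcb : c * b = b * c) : c ∈ (scal : Subgroup (V ≃ₗ[ZMod q] V)) := by
  have hca' : ∀ v, c (a v) = a (c v) := fun v => LinearEquiv.congr_fun hca v
  have hcb' : ∀ v, c (b v) = b (c v) := fun v => LinearEquiv.congr_fun hcb v
  have hna : ¬ ∀ v, ∃ d : ZMod q, a v = d • v := by
    intro h
    obtain ⟨d, hd⟩ := mem_scal.1 (n2_scal_of_eigen a h)
    obtain ⟨v, hv⟩ := exists_ne (0 : V)
    have h1 := hab v
    rw [hd, hd, map_smul] at h1
    have h3 : (2 * d) • b v = 0 := by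
      rw [two_mul, add_smul]
      nth_rewrite 1 [h1]
      rw [neg_add_cancel]
    rcases smul_eq_zero.1 h3 with h4 | h4
    · rcases mul_eq_zero.1 h4 with h5 | h5
      · exact h2 h5
      · apply hv
        apply a.injective
        rw [hd, h5, zero_smul, map_zero]
    · apply hv
      apply b.injective
      rw [h4, map_zero]
  push Not at hna
  obtain ⟨v, hv⟩ := hna
  have hv0 : v ≠ 0 := by
    rintro rfl
    exact hv 0 (by rw [map_zero, smul_zero])
  obtain ⟨α, β, hαβ⟩ := n2_span hV v (a v) hv0 hv (c v)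
  have hc : ∀ u, c u = α • u + β • a u := by
    intro u
    obtain ⟨x, y, rfl⟩ := n2_span hV v (a v) hv0 hv u
    simp only [map_add, map_smul, hca', hαβ, smul_add, smul_smul]
    rw [mul_comm x α, mul_comm x β, mul_comm y α, mul_comm y β]
    abel
  have hβ : β = 0 := by
    have h1 := hcb' v
    rw [hc, hc, hab, map_add, map_smul, map_smul] at h1
    have h3 : (2 * β) • b (a v) = 0 := by
      rw [two_mul, add_smul]
      have h4 : β • -(b (a v)) = β • b (a v) := add_left_cancel h1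
      nth_rewrite 1 [← h4]
      rw [smul_neg, neg_add_cancel]
    rcases smul_eq_zero.1 h3 with h4 | h4
    · exact (mul_eq_zero.1 h4).resolve_left h2
    · exfalso
      apply hv0
      apply a.injective
      apply b.injective
      rw [h4, map_zero, map_zero]
  rw [mem_scal]
  refine ⟨α, fun u => ?_⟩
  rw [hc, hβ, zero_smul, add_zero]

/-- `a b = z b a` forces `z ^ 2 = 1` (determinants) -/
theorem n2_sq_eq_one (hV : Nat.card V = q ^ 2) (a b : V ≃ₗ[ZMod q] V) (z : ZMod q)
    (hab : ∀ v, a (b v) = z • b (a v)) : z ^ 2 = 1 := by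
  have hfr : Module.finrank (ZMod q) V = 2 := by
    have hq : q.Prime := Fact.out
    have h1 := Module.natCard_eq_pow_finrank (K := ZMod q) (V := V)
    rw [hV, Nat.card_zmod] at h1
    exact (Nat.pow_right_injective hq.two_le h1).symm
  have h1 : a.toLinearMap * b.toLinearMap = z • (b.toLinearMap * a.toLinearMap) := by
    ext v
    exact hab v
  have h2 := congrArg LinearMap.det h1
  rw [LinearMap.det_smul, map_mul, map_mul, hfr] at h2
  have ha : LinearMap.det a.toLinearMap ≠ 0 := (LinearEquiv.isUnit_det' a).ne_zero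
  have hb : LinearMap.det b.toLinearMap ≠ 0 := (LinearEquiv.isUnit_det' b).ne_zero
  have h3 : z ^ 2 * (LinearMap.det a.toLinearMap * LinearMap.det b.toLinearMap)
      = 1 * (LinearMap.det a.toLinearMap * LinearMap.det b.toLinearMap) := by
    linear_combination (-1 : ZMod q) * h2
  exact mul_right_cancel₀ (mul_ne_zero ha hb) h3

theorem n2_corr (a x m : V ≃ₗ[ZMod q] V) (l : ZMod q) (hx : ∀ v, x (a v) = l • a (x v))
    (hm : ∀ v, m (a v) = l • a (m v)) : (m⁻¹ * x) * a = a * (m⁻¹ * x) := by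
  ext v
  change m⁻¹ (x (a v)) = a (m⁻¹ (x v))
  apply m.injective
  have h1 : ∀ u, m (m⁻¹ u) = u := fun u => by
    have : m (m⁻¹ u) = (m * m⁻¹) u := rfl
    rw [this, mul_inv_cancel]
    rfl
  rw [h1, hm, h1, hx]

theorem n2_sign [Nontrivial V] (a x : V ≃ₗ[ZMod q] V) (α l : ZMod q) (ha : ∀ v, a (a v) = α • v)
    (hx : ∀ v, x (a v) = l • a (x v)) : l = 1 ∨ l = -1 := by
  obtain ⟨v, hv⟩ := exists_ne (0 : V)
  have h1 : x (a (a v)) = (l * l * α) • x v := by
    rw [hx, hx, map_smul, ha, smul_smul, smul_smul]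
  rw [ha, map_smul] at h1
  have h2 : ((l * l - 1) * α) • x v = 0 := by
    rw [sub_mul, one_mul, sub_smul, ← h1, sub_self]
  have hxv : x v ≠ 0 := fun h => hv (x.injective (by rw [h, map_zero]))
  have hα : α ≠ 0 := by
    rintro rfl
    apply hv
    apply a.injective
    apply a.injective
    rw [ha, zero_smul, map_zero, map_zero]
  have h3 := (mul_eq_zero.1 ((smul_eq_zero.1 h2).resolve_right hxv)).resolve_right hα
  have h4 : (l - 1) * (l + 1) = 0 := by linear_combination h3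
  rcases mul_eq_zero.1 h4 with h | h
  · exact Or.inl (sub_eq_zero.1 h)
  · exact Or.inr (eq_neg_of_add_eq_zero_left h)

theorem n2_class [Nontrivial V] (hV : Nat.card V = q ^ 2) (h2 : (2 : ZMod q) ≠ 0)
    (a b x : V ≃ₗ[ZMod q] V) (hab : ∀ v, a (b v) = -(b (a v))) (l μ : ZMod q)
    (hxa : ∀ v, x (a v) = l • a (x v)) (hxb : ∀ v, x (b v) = μ • b (x v)) :
    x ∈ (scal : Subgroup (V ≃ₗ[ZMod q] V)) ∨ a⁻¹ * x ∈ (scal : Subgroup (V ≃ₗ[ZMod q] V)) ∨
      b⁻¹ * x ∈ (scal : Subgroup (V ≃ₗ[ZMod q] V)) ∨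
      (a * b)⁻¹ * x ∈ (scal : Subgroup (V ≃ₗ[ZMod q] V)) := by
  have hba : ∀ v, b (a v) = -(a (b v)) := fun v => by rw [hab, neg_neg]
  obtain ⟨α, hα⟩ := mem_scal.1 (n2_scal_of_commute hV h2 a b (a * a) hab (mul_assoc a a a) (by
    ext v
    change a (a (b v)) = b (a (a v))
    rw [hab, map_neg, hab, neg_neg]))
  obtain ⟨β, hβ⟩ := mem_scal.1 (n2_scal_of_commute hV h2 a b (b * b) hab (by
    ext v
    change b (b (a v)) = a (b (b v))
    rw [hba, map_neg, hba, neg_neg]) (mul_assoc b b b))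
  rcases n2_sign a x α l hα hxa with rfl | rfl <;> rcases n2_sign b x β μ hβ hxb with rfl | rfl
  · left
    apply n2_scal_of_commute hV h2 a b x hab
    · ext v
      change x (a v) = a (x v)
      rw [hxa, one_smul]
    · ext v
      change x (b v) = b (x v)
      rw [hxb, one_smul]
  · right; left
    exact n2_scal_of_commute hV h2 a b _ hab
      (n2_corr a x a 1 hxa (fun v => (one_smul _ _).symm))
      (n2_corr b x a (-1) hxb (fun v => by rw [hab, neg_smul, one_smul]))
  · right; right; left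
    exact n2_scal_of_commute hV h2 a b _ hab
      (n2_corr a x b (-1) hxa (fun v => by rw [hba, neg_smul, one_smul]))
      (n2_corr b x b 1 hxb (fun v => (one_smul _ _).symm))
  · right; right; right
    exact n2_scal_of_commute hV h2 a b _ hab
      (n2_corr a x (a * b) (-1) hxa (fun v => by
        change a (b (a v)) = (-1 : ZMod q) • a (a (b v))
        rw [hba, map_neg, neg_smul, one_smul]))
      (n2_corr b x (a * b) (-1) hxb (fun v => by
        change a (b (b v)) = (-1 : ZMod q) • b (a (b v))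
        rw [hba, neg_smul, one_smul, neg_neg]))

theorem n2_arith (q : ℕ) (hq : q.Prime) (hq2 : q ≠ 2) (h : q + 1 ∣ 24 ∨ q + 1 ∣ 16) :
    q = 3 ∨ q = 5 ∨ q = 7 ∨ q = 11 ∨ q = 23 := by
  have hle : q ≤ 23 := by
    rcases h with h | h
    · have := Nat.le_of_dvd (by norm_num) h
      omega
    · have := Nat.le_of_dvd (by norm_num) h
      omega
  interval_cases q <;> first | omega | (exfalso; revert hq h; decide)

/-- RUNG N2 -/
theorem case_two (hV : Nat.card V = q ^ 2) (G : Subgroup (V ≃ₗ[ZMod q] V))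
    (hsol : Group.IsSolvable G) (htr : Trans G) (hno : ¬ HasIAN G) :
    q = 3 ∨ q = 5 ∨ q = 7 ∨ q = 11 ∨ q = 23 := by
  have hq : q.Prime := Fact.out
  haveI : Nontrivial V := by
    apply Finite.one_lt_card_iff_nontrivial.1
    rw [hV]
    exact Nat.one_lt_pow two_ne_zero hq.one_lt
  haveI : Finite (V ≃ₗ[ZMod q] V) := finite_gl
  have hdvd : q ^ 2 - 1 ∣ Nat.card G := by
    rw [← hV]
    exact card_sub_one_dvd G htr
  have hq2le := hq.two_le
  have hsq : q ^ 2 - 1 = (q - 1) * (q + 1) := by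
    obtain ⟨k, rfl⟩ : ∃ k, q = k + 1 := ⟨q - 1, by omega⟩
    simp only [Nat.add_sub_cancel]
    have : (k + 1) ^ 2 = k * (k + 1 + 1) + 1 := by ring
    rw [this, Nat.add_sub_cancel]
  have hGS : ¬ G ≤ scal := by
    intro h
    have h1 : Nat.card G ∣ q - 1 := (Subgroup.card_dvd_of_le h).trans card_scal_dvd
    have h2 := Nat.le_of_dvd (by omega) (hdvd.trans h1)
    rw [hsq] at h2
    have : (q - 1) * 2 ≤ (q - 1) * (q + 1) := Nat.mul_le_mul_left _ (by omega)
    omega
  obtain ⟨N, hNG, hNn, hNc, hNS⟩ := n2_exists_last G scal hsol hGS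
  have hnab : ∃ a ∈ N, ∃ b ∈ N, a * b ≠ b * a := by
    by_contra hcon
    push Not at hcon
    exact hNS (n2_scal_of_isAN hV G htr hno N ⟨hNG, hNn, hcon⟩)
  obtain ⟨a, ha, b, hb, hne⟩ := hnab
  obtain ⟨z, hz⟩ := mem_scal.1 (hNc a ha b hb)
  have hab0 : ∀ v, a (b v) = z • b (a v) := by
    intro v
    have h1 : a * b = (a * b * a⁻¹ * b⁻¹) * (b * a) := by group
    have h2 : a (b v) = (a * b * a⁻¹ * b⁻¹) (b (a v)) := LinearEquiv.congr_fun h1 v
    rw [h2, hz]
  have hz1 : z ≠ 1 := by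
    rintro rfl
    apply hne
    ext v
    change a (b v) = b (a v)
    rw [hab0, one_smul]
  have hz2 := n2_sq_eq_one hV a b z hab0
  have hzneg : z = -1 := by
    have : (z - 1) * (z + 1) = 0 := by linear_combination hz2
    rcases mul_eq_zero.1 this with h | h
    · exact absurd (sub_eq_zero.1 h) hz1
    · exact eq_neg_of_add_eq_zero_left h
  have h2 : (2 : ZMod q) ≠ 0 := by
    intro h
    apply hz1
    rw [hzneg]
    linear_combination -h
  have hqne2 : q ≠ 2 := by
    intro h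
    apply h2
    have := (ZMod.natCast_eq_zero_iff 2 q).2 (by rw [h])
    exact_mod_cast this
  have hab : ∀ v, a (b v) = -(b (a v)) := by
    intro v
    rw [hab0, hzneg, neg_smul, one_smul]
  haveI hnorm : (scal : Subgroup (V ≃ₗ[ZMod q] V)).Normal :=
    ⟨fun s hs g => by rw [← scal_central hs g, mul_inv_cancel_right]; exact hs⟩
  let π := QuotientGroup.mk' (scal : Subgroup (V ≃ₗ[ZMod q] V))
  have hπ1 : ∀ x, π x = 1 ↔ x ∈ (scal : Subgroup (V ≃ₗ[ZMod q] V)) :=
    fun x => QuotientGroup.eq_one_iff x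
  have hπeq : ∀ x y, π x = π y ↔ x⁻¹ * y ∈ (scal : Subgroup (V ≃ₗ[ZMod q] V)) :=
    fun x y => QuotientGroup.eq
  have hNcomm : ∀ x ∈ N, ∀ y ∈ N, π x * π y = π y * π x := by
    intro x hx y hy
    rw [← map_mul, ← map_mul, hπeq]
    have := hNc y⁻¹ (N.inv_mem hy) x⁻¹ (N.inv_mem hx)
    convert this using 1
    group
  have ha1 : π a ≠ 1 := by
    intro h
    exact hne (scal_central ((hπ1 a).1 h) b)
  have hb1 : π b ≠ 1 := by
    intro h
    exact hne (scal_central ((hπ1 b).1 h) a).symm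
  have hneab : π a ≠ π b := by
    intro h
    have h1 := scal_central ((hπeq a b).1 h) a
    apply hne
    have h3 : a * (a⁻¹ * b * a) = a * (a * (a⁻¹ * b)) := by rw [h1]
    have h4 : a * (a⁻¹ * b * a) = b * a := by group
    have h5 : a * (a * (a⁻¹ * b)) = a * b := by group
    rw [← h5, ← h3, h4]
  have hab1 : π a * π b ≠ 1 := by
    intro h
    rw [← map_mul, hπ1] at h
    have h1 := scal_central h a
    apply hne
    rw [mul_assoc] at h1
    exact (mul_left_cancel h1).symm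
  have hlift : ∀ x c : V ≃ₗ[ZMod q] V, π x * π c = π c * π x →
      ∃ l : ZMod q, ∀ v, x (c v) = l • c (x v) := by
    intro x c h
    rw [← map_mul, ← map_mul] at h
    obtain ⟨l, hl⟩ := mem_scal.1 ((hπeq _ _).1 h.symm)
    refine ⟨l, fun v => ?_⟩
    have h1 : x * c = (c * x) * ((c * x)⁻¹ * (x * c)) := by group
    have h2 : x (c v) = c (x (((c * x)⁻¹ * (x * c)) v)) := LinearEquiv.congr_fun h1 v
    rw [h2, hl, map_smul, map_smul]
  have hcl : ∀ x : V ≃ₗ[ZMod q] V, π x * π a = π a * π x → π x * π b = π b * π x →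
      π x = 1 ∨ π x = π a ∨ π x = π b ∨ π x = π a * π b := by
    intro x hxa hxb
    obtain ⟨l, hl⟩ := hlift x a hxa
    obtain ⟨μ, hμ⟩ := hlift x b hxb
    rcases n2_class hV h2 a b x hab l μ hl hμ with h | h | h | h
    · exact Or.inl ((hπ1 x).2 h)
    · exact Or.inr (Or.inl ((hπeq a x).2 h).symm)
    · exact Or.inr (Or.inr (Or.inl ((hπeq b x).2 h).symm))
    · refine Or.inr (Or.inr (Or.inr ?_))
      rw [← map_mul]
      exact ((hπeq (a * b) x).2 h).symm
  have hconj : ∀ c ∈ N, π c ≠ 1 → ∀ g ∈ G.map π,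
      g * π c * g⁻¹ = π a ∨ g * π c * g⁻¹ = π b ∨ g * π c * g⁻¹ = π a * π b := by
    rintro c hc hc1 _ ⟨y, hy, rfl⟩
    have hmem := hNn y hy c hc
    have h1 := hcl (y * c * y⁻¹) (hNcomm _ hmem a ha) (hNcomm _ hmem b hb)
    rw [map_mul, map_mul, map_inv] at h1
    rcases h1 with h | h
    · exact absurd (conj_eq_one_iff.1 h) hc1
    · exact h
  obtain ⟨i, j, hi1, hi3, hj1, hj2, hij⟩ := n2_chain (G.map π) (π a) (π b)
    (Subgroup.mem_map_of_mem π (hNG ha)) (Subgroup.mem_map_of_mem π (hNG hb))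
    (hNcomm a ha b hb) ha1 hb1 hneab hab1 (hconj a ha ha1) (hconj b hb hb1) (by
      rintro _ ⟨x, _, rfl⟩
      exact hcl x)
  have hcard : Nat.card (scal ⊓ G : Subgroup (V ≃ₗ[ZMod q] V)) * Nat.card (G.map π)
      = Nat.card G := by
    have h1 := n2_card_mul_relIndex (scal ⊓ G) G inf_le_right
    rw [Subgroup.inf_relIndex_right] at h1
    have h3 : π.ker.relIndex G = Nat.card (G.map π) := Subgroup.relIndex_ker G π
    rw [QuotientGroup.ker_mk'] at h3
    rw [← h3]
    exact h1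
  obtain ⟨e, he⟩ : Nat.card (scal ⊓ G : Subgroup (V ≃ₗ[ZMod q] V)) ∣ q - 1 :=
    (Subgroup.card_dvd_of_le inf_le_left).trans card_scal_dvd
  have hpos : 0 < Nat.card (scal ⊓ G : Subgroup (V ≃ₗ[ZMod q] V)) := Nat.card_pos
  have hfin : q + 1 ∣ i * j * 4 := by
    rw [← hcard, hsq, he, hij, mul_assoc] at hdvd
    exact dvd_of_mul_left_dvd (Nat.dvd_of_mul_dvd_mul_left hpos hdvd)
  apply n2_arith q hq hqne2
  have hi : i = 1 ∨ i = 2 ∨ i = 3 := by omega
  have hj : j = 1 ∨ j = 2 := by omega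
  rcases hi with rfl | rfl | rfl <;> rcases hj with rfl | rfl
  · exact Or.inl (hfin.trans (by norm_num))
  · exact Or.inl (hfin.trans (by norm_num))
  · exact Or.inl (hfin.trans (by norm_num))
  · exact Or.inr (hfin.trans (by norm_num))
  · exact Or.inl (hfin.trans (by norm_num))
  · exact Or.inl (hfin.trans (by norm_num))

end Cfsg.Agent.Lib.Helper41.Hup
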