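import Mathlib
import Cfsg.Agent.Lib.Helper76.Hup.Defs

/-!
# Ladder "HUP", rungs OQ and SR

* `eq_bot_of_normal_qgroup` : a normal `q`-subgroup of a linear group transitive on the nonzero
  vectors is trivial;
* `semiregular_of_isAN` : an abelian normal subgroup is semiregular on the nonzero vectors.
-/

set_option autoImplicit false

namespace Cfsg.Agent.Lib.Helper41.Hup

open Cfsg.Agent.Lib.Helper76.Hup

variable {q : ℕ} [Fact q.Prime] {V : Type*} [AddCommGroup V] [Module (ZMod q) V] [Finite V]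

theorem oq_dvd_card (v : V) (hv : v ≠ 0) : q ∣ Nat.card V := by
  have h1 : addOrderOf v ∣ q := by
    apply addOrderOf_dvd_of_nsmul_eq_zero
    have : (q : ℕ) • v = ((q : ℕ) : ZMod q) • v := by
      rw [Nat.cast_smul_eq_nsmul]
    rw [this, ZMod.natCast_self, zero_smul]
  have h2 : addOrderOf v = q := by
    rcases (Nat.dvd_prime (Fact.out : q.Prime)).1 h1 with h | h
    · exact absurd (AddMonoid.addOrderOf_eq_one_iff.1 h) hv
    · exact h
  rw [← h2]
  exact addOrderOf_dvd_natCard v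

/-- RUNG OQ : normal `q`-subgroups are trivial -/
theorem eq_bot_of_normal_qgroup (G : Subgroup (V ≃ₗ[ZMod q] V)) (htr : Trans G)
    (Q : Subgroup (V ≃ₗ[ZMod q] V)) (hQG : Q ≤ G) (hQn : ∀ g ∈ G, ∀ a ∈ Q, g * a * g⁻¹ ∈ Q)
    (hQ : IsPGroup q Q) : Q = ⊥ := by
  rw [Subgroup.eq_bot_iff_forall]
  intro a ha
  by_cases hV : ∃ v : V, v ≠ 0
  · obtain ⟨v₀, hv₀⟩ := hV
    have hdvd : q ∣ Nat.card V := oq_dvd_card v₀ hv₀
    have h0 : (0 : V) ∈ MulAction.fixedPoints Q V := by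
      intro b
      exact map_zero (b : V ≃ₗ[ZMod q] V)
    obtain ⟨v, hvfix, hv⟩ := hQ.exists_fixed_point_of_prime_dvd_card_of_fixed_point V hdvd h0
    have hfix : ∀ b ∈ Q, b v = v := fun b hb => hvfix ⟨b, hb⟩
    ext w
    by_cases hw : w = 0
    · simp [hw]
    · obtain ⟨g, hg, rfl⟩ := htr v w (Ne.symm hv) hw
      have h1 := hfix _ (hQn g⁻¹ (G.inv_mem hg) a ha)
      rw [inv_inv] at h1
      have h2 : g ((g⁻¹ * a * g) v) = g v := by rw [h1]
      have h3 : g ((g⁻¹ * a * g) v) = a (g v) := by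
        have : g ((g⁻¹ * a * g) v) = (g * (g⁻¹ * a * g)) v := rfl
        rw [this]
        have : g * (g⁻¹ * a * g) = a * g := by group
        rw [this]
        rfl
      rw [← h3, h2]
      rfl
  · push Not at hV
    ext w
    rw [hV w, hV (a 0)]
    simp

theorem finite_gam : Finite (V ≃ₗ[ZMod q] V) :=
  Finite.of_injective (fun e : V ≃ₗ[ZMod q] V => (e : V → V)) DFunLike.coe_injective

/-- the stabilizer of `w` in `A` -/
def srSt (A : Subgroup (V ≃ₗ[ZMod q] V)) (w : V) : Subgroup (V ≃ₗ[ZMod q] V) :=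
  A ⊓ MulAction.stabilizer (V ≃ₗ[ZMod q] V) w

theorem mem_srSt {A : Subgroup (V ≃ₗ[ZMod q] V)} {w : V} {a : V ≃ₗ[ZMod q] V} :
    a ∈ srSt A w ↔ a ∈ A ∧ a w = w := by
  unfold srSt
  rw [Subgroup.mem_inf, MulAction.mem_stabilizer_iff]
  rfl

theorem srSt_card_le (G : Subgroup (V ≃ₗ[ZMod q] V)) (htr : Trans G)
    (A : Subgroup (V ≃ₗ[ZMod q] V)) (hA : IsAN G A) (u w : V) (hu : u ≠ 0) (hw : w ≠ 0) :
    Nat.card (srSt A u) ≤ Nat.card (srSt A w) := by
  haveI : Finite (V ≃ₗ[ZMod q] V) := finite_gam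
  obtain ⟨g, hg, rfl⟩ := htr u w hu hw
  have hmem : ∀ a : srSt A u, g * (a : V ≃ₗ[ZMod q] V) * g⁻¹ ∈ srSt A (g u) := by
    intro a
    obtain ⟨h1, h2⟩ := mem_srSt.1 a.2
    refine mem_srSt.2 ⟨hA.2.1 g hg _ h1, ?_⟩
    have : (g * (a : V ≃ₗ[ZMod q] V) * g⁻¹) (g u) = g ((a : V ≃ₗ[ZMod q] V) ((g⁻¹ * g) u)) := rfl
    rw [this, inv_mul_cancel]
    have : (1 : V ≃ₗ[ZMod q] V) u = u := rfl
    rw [this, h2]
  apply Nat.card_le_card_of_injective (fun a : srSt A u => (⟨_, hmem a⟩ : srSt A (g u)))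
  intro a b hab
  have h1 : g * (a : V ≃ₗ[ZMod q] V) * g⁻¹ = g * (b : V ≃ₗ[ZMod q] V) * g⁻¹ :=
    congrArg Subtype.val hab
  apply Subtype.ext
  exact mul_left_cancel (mul_right_cancel h1)

theorem srSt_eq_of_le (G : Subgroup (V ≃ₗ[ZMod q] V)) (htr : Trans G)
    (A : Subgroup (V ≃ₗ[ZMod q] V)) (hA : IsAN G A) (u w : V) (hu : u ≠ 0) (hw : w ≠ 0)
    (h : srSt A u ≤ srSt A w) : srSt A u = srSt A w := by
  haveI : Finite (V ≃ₗ[ZMod q] V) := finite_gam
  exact Subgroup.eq_of_le_of_card_ge h (srSt_card_le G htr A hA w u hw hu)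

theorem srSt_eq (G : Subgroup (V ≃ₗ[ZMod q] V)) (htr : Trans G)
    (A : Subgroup (V ≃ₗ[ZMod q] V)) (hA : IsAN G A) (v w : V) (hv : v ≠ 0) (hw : w ≠ 0) :
    srSt A v = srSt A w := by
  by_contra hne
  have hnle : ¬ srSt A v ≤ srSt A w := fun h => hne (srSt_eq_of_le G htr A hA v w hv hw h)
  have hvw : v + w ≠ 0 := by
    intro h0
    apply hnle
    intro a ha
    obtain ⟨h1, h2⟩ := mem_srSt.1 ha
    refine mem_srSt.2 ⟨h1, ?_⟩
    have : w = -v := by rw [eq_neg_iff_add_eq_zero, add_comm]; exact h0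
    rw [this, map_neg, h2]
  have key : ∀ b ∈ srSt A (v + w), b v = v ∧ b w = w := by
    intro b hb
    obtain ⟨hbA, hb2⟩ := mem_srSt.1 hb
    rw [map_add] at hb2
    have hu : b v - v = w - b w := by
      rw [sub_eq_sub_iff_add_eq_add, hb2, add_comm]
    by_cases h0 : b v - v = 0
    · refine ⟨sub_eq_zero.1 h0, ?_⟩
      rw [h0] at hu
      exact (sub_eq_zero.1 hu.symm).symm
    · exfalso
      have h1 : srSt A v ≤ srSt A (b v - v) := by
        intro c hc
        obtain ⟨hcA, hc2⟩ := mem_srSt.1 hc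
        refine mem_srSt.2 ⟨hcA, ?_⟩
        have hcb : c (b v) = b (c v) := by
          have : (c * b) v = (b * c) v := by rw [hA.2.2 c hcA b hbA]
          exact this
        rw [map_sub, hcb, hc2]
      have h2 : srSt A w ≤ srSt A (b v - v) := by
        intro c hc
        obtain ⟨hcA, hc2⟩ := mem_srSt.1 hc
        refine mem_srSt.2 ⟨hcA, ?_⟩
        have hcb : c (b w) = b (c w) := by
          have : (c * b) w = (b * c) w := by rw [hA.2.2 c hcA b hbA]
          exact this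
        rw [hu, map_sub, hcb, hc2]
      exact hne ((srSt_eq_of_le G htr A hA _ _ hv h0 h1).trans
        (srSt_eq_of_le G htr A hA _ _ hw h0 h2).symm)
  have h1 : srSt A (v + w) ≤ srSt A v := fun b hb =>
    mem_srSt.2 ⟨(mem_srSt.1 hb).1, (key b hb).1⟩
  have h2 : srSt A (v + w) ≤ srSt A w := fun b hb =>
    mem_srSt.2 ⟨(mem_srSt.1 hb).1, (key b hb).2⟩
  exact hne ((srSt_eq_of_le G htr A hA _ _ hvw hv h1).symm.trans
    (srSt_eq_of_le G htr A hA _ _ hvw hw h2))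

/-- RUNG SR : abelian normal subgroups are semiregular on nonzero vectors -/
theorem semiregular_of_isAN (G : Subgroup (V ≃ₗ[ZMod q] V)) (htr : Trans G)
    (A : Subgroup (V ≃ₗ[ZMod q] V)) (hA : IsAN G A) :
    ∀ a ∈ A, ∀ v : V, v ≠ 0 → a v = v → a = 1 := by
  intro a ha v hv hav
  ext w
  by_cases hw : w = 0
  · simp [hw]
  · have h1 : a ∈ srSt A v := mem_srSt.2 ⟨ha, hav⟩
    rw [srSt_eq G htr A hA v w hv hw] at h1
    exact (mem_srSt.1 h1).2

end Cfsg.Agent.Lib.Helper41.Hup
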