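import Mathlib
import Cfsg.Agent.Lib.Helper76.Hup.Defs

/-!
# Ladder "HUP", rung SEMI

A linear group with an irreducible abelian normal subgroup `A` consists of semilinear maps of a
field structure on `V`: the field is the centralizer ring of `A` (a finite domain by Schur's lemma,
hence a field by Wedderburn's little theorem).
-/

set_option autoImplicit false
set_option linter.unusedSectionVars false
set_option linter.style.haveILetI false

namespace Cfsg.Agent.Lib.Helper41.Hup

open Cfsg.Agent.Lib.Helper76.Hup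

variable {q : ℕ} [Fact q.Prime] {V : Type*} [AddCommGroup V] [Module (ZMod q) V] [Finite V]

theorem semi_of_field {K : Type*} [Field K] [Finite K] (G : Subgroup (V ≃ₗ[ZMod q] V))
    (e0 : V ≃+ K)
    (h : ∀ g ∈ G, ∃ (a : K) (σ : K ≃+* K), ∀ v : V, e0 (g v) = a * σ (e0 v)) : Semi G := by
  haveI : Small.{0} K := Countable.toSmall K
  let ψ : Shrink.{0} K ≃+* K := Shrink.ringEquiv.{0} K
  haveI : Finite (Shrink.{0} K) := Finite.of_equiv K (equivShrink.{0} K)
  refine ⟨Shrink.{0} K, inferInstance, Fintype.ofFinite _, e0.trans ψ.symm.toAddEquiv, ?_⟩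
  intro g hg
  obtain ⟨a, σ, hσ⟩ := h g hg
  refine ⟨ψ.symm a, (ψ.trans σ).trans ψ.symm, ?_⟩
  intro v
  simp [hσ]

theorem semi_of_ring {K : Type*} [Ring K] [IsDomain K] [Finite K] (G : Subgroup (V ≃ₗ[ZMod q] V))
    (e0 : V ≃+ K)
    (h : ∀ g ∈ G, ∃ (a : K) (σ : K ≃+* K), ∀ v : V, e0 (g v) = a * σ (e0 v)) : Semi G := by
  letI : Field K := IsField.toField (Finite.isDomain_to_isField K)
  exact semi_of_field G e0 h

/-- the centralizer ring of `A` -/
def semiC (A : Subgroup (V ≃ₗ[ZMod q] V)) : Subring (Module.End (ZMod q) V) :=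
  Subring.centralizer {f | ∃ a ∈ A, f = (a : V ≃ₗ[ZMod q] V).toLinearMap}

theorem mem_semiC {A : Subgroup (V ≃ₗ[ZMod q] V)} {s : Module.End (ZMod q) V} :
    s ∈ semiC A ↔ ∀ a ∈ A, ∀ v, a (s v) = s (a v) := by
  unfold semiC
  rw [Subring.mem_centralizer_iff]
  constructor
  · intro h a ha v
    exact LinearMap.congr_fun (h _ ⟨a, ha, rfl⟩) v
  · rintro h _ ⟨a, ha, rfl⟩
    ext v
    exact h a ha v

theorem semiC_inj {A : Subgroup (V ≃ₗ[ZMod q] V)} (hirr : Irr A) {s : Module.End (ZMod q) V}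
    (hs : s ∈ semiC A) (h0 : s ≠ 0) : Function.Injective s := by
  rcases hirr (LinearMap.ker s) (by
    intro a ha w hw
    rw [LinearMap.mem_ker] at hw ⊢
    rw [← mem_semiC.1 hs a ha w, hw, map_zero]) with h | h
  · exact LinearMap.ker_eq_bot.1 h
  · exact absurd (LinearMap.ker_eq_top.1 h) h0

theorem semiC_isDomain [Nontrivial V] {A : Subgroup (V ≃ₗ[ZMod q] V)} (hirr : Irr A) :
    IsDomain (semiC A) := by
  haveI : NoZeroDivisors (semiC A) := by
    constructor
    intro s t hst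
    by_cases hs : s = 0
    · exact Or.inl hs
    · right
      have hs' : (s : Module.End (ZMod q) V) ≠ 0 := fun h => hs (Subtype.ext h)
      have hinj := semiC_inj hirr s.2 hs'
      apply Subtype.ext
      ext v
      apply hinj
      have : ((s * t : semiC A) : Module.End (ZMod q) V) v = 0 := by rw [hst]; rfl
      have h0 : (s : Module.End (ZMod q) V) (((0 : semiC A) : Module.End (ZMod q) V) v) = 0 :=
        map_zero _
      rw [h0]
      exact this
  exact NoZeroDivisors.to_isDomain _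

theorem semiC_conj_mem {A : Subgroup (V ≃ₗ[ZMod q] V)} (g : V ≃ₗ[ZMod q] V)
    (hg : ∀ a ∈ A, g⁻¹ * a * g ∈ A) {s : Module.End (ZMod q) V} (hs : s ∈ semiC A) :
    g.toLinearMap * s * (g⁻¹).toLinearMap ∈ semiC A := by
  rw [mem_semiC]
  intro a ha v
  have h1 := mem_semiC.1 hs _ (hg a ha) (g⁻¹ v)
  have h2 : ∀ x, a (g x) = g ((g⁻¹ * a * g) x) := by
    intro x
    have : g ((g⁻¹ * a * g) x) = (g * (g⁻¹ * a * g)) x := rfl
    rw [this]
    have : g * (g⁻¹ * a * g) = a * g := by group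
    rw [this]
    rfl
  have h3 : (g⁻¹ * a * g) (g⁻¹ v) = g⁻¹ (a v) := by
    have : (g⁻¹ * a * g) (g⁻¹ v) = (g⁻¹ * a * g * g⁻¹) v := rfl
    rw [this]
    have : g⁻¹ * a * g * g⁻¹ = g⁻¹ * a := by group
    rw [this]
    rfl
  change a (g (s (g⁻¹ v))) = g (s (g⁻¹ (a v)))
  rw [h2, h1, h3]

/-- conjugation by `g` on the centralizer ring -/
def semiConj {A : Subgroup (V ≃ₗ[ZMod q] V)} (g : V ≃ₗ[ZMod q] V)
    (hg : ∀ a ∈ A, g⁻¹ * a * g ∈ A) : semiC A →+* semiC A where
  toFun s := ⟨g.toLinearMap * s * (g⁻¹).toLinearMap, semiC_conj_mem g hg s.2⟩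
  map_one' := by
    apply Subtype.ext
    ext v
    change g (g⁻¹ v) = v
    have : g (g⁻¹ v) = (g * g⁻¹) v := rfl
    rw [this, mul_inv_cancel]
    rfl
  map_mul' s t := by
    apply Subtype.ext
    ext v
    change g (s.1 (t.1 (g⁻¹ v))) = g (s.1 (g⁻¹ (g (t.1 (g⁻¹ v)))))
    have : ∀ x, g⁻¹ (g x) = x := by
      intro x
      have : g⁻¹ (g x) = (g⁻¹ * g) x := rfl
      rw [this, inv_mul_cancel]
      rfl
    rw [this]
  map_zero' := by
    apply Subtype.ext
    ext v
    change g ((0 : Module.End (ZMod q) V) (g⁻¹ v)) = 0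
    simp
  map_add' s t := by
    apply Subtype.ext
    ext v
    change g ((s.1 + t.1) (g⁻¹ v)) = g (s.1 (g⁻¹ v)) + g (t.1 (g⁻¹ v))
    simp

theorem semiConj_injective {A : Subgroup (V ≃ₗ[ZMod q] V)} (g : V ≃ₗ[ZMod q] V)
    (hg : ∀ a ∈ A, g⁻¹ * a * g ∈ A) : Function.Injective (semiConj g hg) := by
  intro s t hst
  apply Subtype.ext
  ext v
  have h1 : ((semiConj g hg s : semiC A) : Module.End (ZMod q) V) (g v)
      = ((semiConj g hg t : semiC A) : Module.End (ZMod q) V) (g v) := by rw [hst]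
  change g (s.1 (g⁻¹ (g v))) = g (t.1 (g⁻¹ (g v))) at h1
  have : g⁻¹ (g v) = v := by
    have : g⁻¹ (g v) = (g⁻¹ * g) v := rfl
    rw [this, inv_mul_cancel]
    rfl
  rw [this] at h1
  exact g.injective h1

/-- RUNG SEMI -/
theorem semi_of_hasIAN [Nontrivial V] (G : Subgroup (V ≃ₗ[ZMod q] V)) (h : HasIAN G) :
    Semi G := by
  obtain ⟨A, ⟨hAG, hAn, hAab⟩, hirr⟩ := h
  haveI : IsDomain (semiC A) := semiC_isDomain hirr
  haveI : Finite (Module.End (ZMod q) V) :=
    Finite.of_injective (fun e : Module.End (ZMod q) V => (e : V → V)) DFunLike.coe_injective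
  have hcomm : ∀ s t : semiC A, s * t = t * s := (Finite.isDomain_to_isField (semiC A)).mul_comm
  obtain ⟨v1, hv1⟩ := exists_ne (0 : V)
  -- the evaluation map
  let φ : semiC A →+ V :=
    { toFun := fun s => (s : Module.End (ZMod q) V) v1
      map_zero' := rfl
      map_add' := fun s t => rfl }
  have hφinj : Function.Injective φ := by
    rw [injective_iff_map_eq_zero]
    intro s hs
    by_contra h0
    have hs' : (s : Module.End (ZMod q) V) ≠ 0 := fun h => h0 (Subtype.ext h)
    have hinj := semiC_inj hirr s.2 hs'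
    apply hv1
    apply hinj
    rw [map_zero]
    exact hs
  have hAC : ∀ a ∈ A, (a : V ≃ₗ[ZMod q] V).toLinearMap ∈ semiC A := by
    intro a ha
    rw [mem_semiC]
    intro b hb v
    have : (b * a) v = (a * b) v := by rw [hAab b hb a ha]
    exact this
  have hφsurj : Function.Surjective φ := by
    let W : Submodule (ZMod q) V :=
      { carrier := Set.range φ
        add_mem' := by
          rintro _ _ ⟨s, rfl⟩ ⟨t, rfl⟩
          exact ⟨s + t, map_add φ s t⟩
        zero_mem' := ⟨0, map_zero φ⟩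
        smul_mem' := by
          rintro c _ ⟨s, rfl⟩
          refine ⟨⟨c • (s : Module.End (ZMod q) V), ?_⟩, rfl⟩
          rw [mem_semiC]
          intro a ha v
          have := mem_semiC.1 s.2 a ha v
          simp only [LinearMap.smul_apply, map_smul, this] }
    have hW : W = ⊥ ∨ W = ⊤ := by
      apply hirr
      rintro a ha _ ⟨s, rfl⟩
      exact ⟨⟨_, hAC a ha⟩ * s, rfl⟩
    rcases hW with hW | hW
    · exfalso
      have : v1 ∈ W := ⟨1, rfl⟩
      rw [hW, Submodule.mem_bot] at this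
      exact hv1 this
    · intro v
      have : v ∈ W := by rw [hW]; trivial
      exact this
  let e0 : semiC A ≃+ V := AddEquiv.ofBijective φ ⟨hφinj, hφsurj⟩
  have he0 : ∀ s : semiC A, e0 s = (s : Module.End (ZMod q) V) v1 := fun s => rfl
  apply semi_of_ring G e0.symm
  intro g hg
  have hg' : ∀ a ∈ A, g⁻¹ * a * g ∈ A := by
    intro a ha
    have := hAn g⁻¹ (G.inv_mem hg) a ha
    rwa [inv_inv] at this
  refine ⟨e0.symm (g v1), RingEquiv.ofBijective (semiConj g hg')
    (Finite.injective_iff_bijective.1 (semiConj_injective g hg')), ?_⟩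
  intro v
  apply e0.injective
  rw [AddEquiv.apply_symm_apply, hcomm, he0]
  change g v = g ((e0.symm v).1 (g⁻¹ ((e0.symm (g v1)).1 v1)))
  rw [← he0, AddEquiv.apply_symm_apply]
  have : g⁻¹ (g v1) = v1 := by
    have : g⁻¹ (g v1) = (g⁻¹ * g) v1 := rfl
    rw [this, inv_mul_cancel]
    rfl
  rw [this, ← he0, AddEquiv.apply_symm_apply]

end Cfsg.Agent.Lib.Helper41.Hup
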