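import Cfsg.Agent.Lib.Helper41.SP8PFWD

set_option autoImplicit false

universe u

/-! Ladder SP8, rung PBACK (helper41). -/

namespace Cfsg.Agent.Lib.Helper41.SP8

open Module LinearMap QuadraticMap Cfsg.Agent.Lib.Helper48 Cfsg.Agent.Lib.Helper17
  Cfsg.Agent.Lib.Helper99.SP8 Cfsg.Agent.Lib.Helper99.PGB

/-- PBACK -/
theorem psp_back {F : Type u} [Field F] [Fintype F] [CharP F 2] {n K : ℕ} (h : AR F (2 * n) K) :
    ∃ y : Cfsg.PSp n F, orderOf y = K := by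
  obtain ⟨V, _, _, _, S, T, hd, hs, hn, hi, ho⟩ := h
  obtain ⟨A, hA⟩ := exists_sp_of_isoB S hs hn hd T hi
  refine ⟨QuotientGroup.mk A, ?_⟩
  apply Nat.dvd_antisymm
  · rw [orderOf_mk_sp_dvd_iff]
    left
    rw [(hA _).1, ho]
  · have h1 := (orderOf_mk_sp_dvd_iff A (orderOf (QuotientGroup.mk A : Cfsg.PSp n F))).1 dvd_rfl
    rcases h1 with h1 | h1
    · exact (ho _).1 ((hA _).1.1 h1)
    · have h2 := (hA _).2.1 h1
      rw [pfwd_neg_one] at h2
      exact (ho _).1 h2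

end Cfsg.Agent.Lib.Helper41.SP8
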