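import Cfsg.Agent.Lib.Helper41.SchurProj
import Mathlib.LinearAlgebra.Matrix.GeneralLinearGroup.Basic
import Mathlib.Analysis.Complex.Polynomial.Basic
import Mathlib.Analysis.Complex.Basic

set_option autoImplicit false

namespace Cfsg.Agent.Lib.Helper41

open Subgroup
open scoped commutatorElement

universe u v w

/-- The centre of `GL n ℂ` is divisible. -/
theorem center_GL_divisible (n : ℕ) : ∀ z ∈ center (GL (Fin n) ℂ), ∀ m : ℕ, 0 < m →
    ∃ w ∈ center (GL (Fin n) ℂ), w ^ m = z := by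
  intro z hz m hm
  rw [Matrix.GeneralLinearGroup.center_eq_range_scalar] at hz ⊢
  obtain ⟨a, rfl⟩ := hz
  obtain ⟨b, hb⟩ := IsAlgClosed.exists_pow_nat_eq (a : ℂ) hm
  have hb0 : b ≠ 0 := by
    rintro rfl
    rw [zero_pow hm.ne'] at hb
    exact a.ne_zero hb.symm
  refine ⟨Matrix.GeneralLinearGroup.scalar (Fin n) (Units.mk0 b hb0), ⟨_, rfl⟩, ?_⟩
  rw [← map_pow]
  congr 1
  apply Units.ext
  simpa using hb

end Cfsg.Agent.Lib.Helper41
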