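import Cfsg.Agent.Lib.Helper41.SchurGL
import Mathlib.LinearAlgebra.Matrix.Reindex
import Mathlib.GroupTheory.FiniteAbelian.Duality
import Mathlib.RingTheory.RootsOfUnity.AlgebraicallyClosed

set_option autoImplicit false

namespace Cfsg.Agent.Lib.Helper41

open Subgroup
open scoped commutatorElement

universe u v w

section Mono

variable {Δ Q : Type*} [Group Δ] [Group Q] (τ : Δ →* Q) (s : Q → Δ) (hs : ∀ q, τ (s q) = q)

/-- The factor set of a section. -/
def cocyc (x : Δ) (q : Q) : τ.ker :=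
  ⟨(s (τ x * q))⁻¹ * x * s q, by simp [MonoidHom.mem_ker, hs]⟩

lemma cocyc_one (q : Q) : cocyc τ s hs 1 q = 1 := by
  apply Subtype.ext
  simp [cocyc]

lemma cocyc_mul (x y : Δ) (q : Q) :
    cocyc τ s hs (x * y) q = cocyc τ s hs x (τ y * q) * cocyc τ s hs y q := by
  apply Subtype.ext
  simp only [cocyc, map_mul, Subgroup.coe_mul, mul_assoc]
  group

lemma cocyc_ker (hc : τ.ker ≤ center Δ) (z : τ.ker) (q : Q) : cocyc τ s hs z.1 q = z := by
  apply Subtype.ext
  have h1 : τ z.1 = 1 := z.2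
  have h2 := mem_center_iff.mp (hc z.2) (s q)
  simp only [cocyc, h1, one_mul]
  rw [mul_assoc, ← h2]
  group

variable [Fintype Q] [DecidableEq Q] (lam : τ.ker →* ℂˣ)

/-- The monomial matrices of the representation induced from a central character. -/
noncomputable def monoMat (x : Δ) : Matrix Q Q ℂ :=
  fun q' q => if q' = τ x * q then ((lam (cocyc τ s hs x q) : ℂˣ) : ℂ) else 0

lemma monoMat_one : monoMat τ s hs lam 1 = 1 := by
  ext q' q
  simp [monoMat, cocyc_one, Matrix.one_apply]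

lemma monoMat_mul (x y : Δ) :
    monoMat τ s hs lam (x * y) = monoMat τ s hs lam x * monoMat τ s hs lam y := by
  ext q' q
  rw [Matrix.mul_apply, Finset.sum_eq_single (τ y * q)]
  · simp only [monoMat, cocyc_mul, map_mul, Units.val_mul, mul_assoc, if_true]
    split_ifs <;> simp
  · intro b _ hb
    simp [monoMat, hb]
  · intro h
    exact absurd (Finset.mem_univ _) h

lemma monoMat_ker (hc : τ.ker ≤ center Δ) (z : τ.ker) :
    monoMat τ s hs lam z.1 = ((lam z : ℂˣ) : ℂ) • (1 : Matrix Q Q ℂ) := by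
  ext q' q
  have h1 : τ z.1 = 1 := z.2
  simp [monoMat, cocyc_ker τ s hs hc, h1, Matrix.one_apply]

/-- The induced representation as a monoid homomorphism to matrices. -/
noncomputable def monoHom : Δ →* Matrix Q Q ℂ where
  toFun := monoMat τ s hs lam
  map_one' := monoMat_one τ s hs lam
  map_mul' := monoMat_mul τ s hs lam

end Mono

/-- A central character is afforded by a matrix representation in which the kernel acts by scalars. -/
theorem exists_rep_of_char {Δ Q : Type*} [Group Δ] [Group Q] [Finite Q] (τ : Δ →* Q)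
    (hτ : Function.Surjective τ) (hc : τ.ker ≤ center Δ) (lam : τ.ker →* ℂˣ) :
    ∃ (n : ℕ) (ρ : Δ →* GL (Fin n) ℂ), (∀ z : τ.ker, ρ z.1 ∈ center (GL (Fin n) ℂ)) ∧
      ∀ z : τ.ker, ρ z.1 = 1 → lam z = 1 := by
  classical
  have := Fintype.ofFinite Q
  let s : Q → Δ := Function.surjInv hτ
  have hs : ∀ q, τ (s q) = q := Function.surjInv_eq hτ
  let e : Q ≃ Fin (Fintype.card Q) := Fintype.equivFin Q
  let R : Matrix Q Q ℂ ≃ₐ[ℂ] Matrix (Fin (Fintype.card Q)) (Fin (Fintype.card Q)) ℂ :=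
    Matrix.reindexAlgEquiv ℂ ℂ e
  let ρ₀ : Δ →* Matrix (Fin (Fintype.card Q)) (Fin (Fintype.card Q)) ℂ :=
    (R : Matrix Q Q ℂ →* Matrix (Fin (Fintype.card Q)) (Fin (Fintype.card Q)) ℂ).comp
      (monoHom τ s hs lam)
  have hρ₀ : ∀ z : τ.ker, ρ₀ z.1 = ((lam z : ℂˣ) : ℂ) • 1 := by
    intro z
    show R (monoMat τ s hs lam z.1) = _
    rw [monoMat_ker τ s hs lam hc, map_smul, map_one]
  refine ⟨Fintype.card Q, ρ₀.toHomUnits, ?_, ?_⟩
  · intro z
    rw [mem_center_iff]
    intro g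
    apply Units.ext
    show g.1 * ρ₀ z.1 = ρ₀ z.1 * g.1
    rw [hρ₀]
    simp
  · intro z hz
    have h1 : ρ₀ z.1 = 1 := congrArg Units.val hz
    have h2 : monoMat τ s hs lam z.1 = 1 := by
      apply R.injective
      rw [map_one]
      exact h1
    rw [monoMat_ker τ s hs lam hc] at h2
    have h3 := congrFun (congrFun h2 1) 1
    apply Units.ext
    simpa using h3

/-- Complex characters separate the elements of a finite abelian group. -/
theorem exists_char_ne_one {B : Type*} [CommGroup B] [Finite B] {b : B} (hb : b ≠ 1) :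
    ∃ lam : B →* ℂˣ, lam b ≠ 1 := by
  have : NeZero (Monoid.exponent B) := ⟨(Monoid.exponent_ne_zero_of_finite)⟩
  have : NeZero ((Monoid.exponent B : ℕ) : ℂ) := ⟨by exact_mod_cast Monoid.exponent_ne_zero_of_finite⟩
  exact CommGroup.exists_apply_ne_one_of_hasEnoughRootsOfUnity B ℂ hb

/-- A stem extension to which all complex projective representations lift dominates all finite
stem extensions. -/
theorem surj_ker_of_lift {Q : Type u} [Group Q] [Finite Q] {Γ : Type v} [Group Γ]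
    (σ : Γ →* Q) (hσ : IsStemExtension σ)
    (hlift : ∀ (n : ℕ) (γ : Q →* (GL (Fin n) ℂ ⧸ center (GL (Fin n) ℂ))),
      ∃ ρ : Γ →* GL (Fin n) ℂ, (QuotientGroup.mk' (center (GL (Fin n) ℂ))).comp ρ = γ.comp σ)
    {Δ : Type w} [Group Δ] [Finite Δ] (τ : Δ →* Q) (hτ : IsStemExtension τ) :
    ∃ π : σ.ker →* τ.ker, Function.Surjective π := by
  have hp₁ : Function.Surjective (pbFst σ τ) := pbFst_surjective σ τ hτ.1
  have hp₂ : Function.Surjective (pbSnd σ τ) := pbSnd_surjective σ τ hσ.1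
  let κ : pb σ τ →* Q := σ.comp (pbFst σ τ)
  let r₁ : (κ.ker ⊓ commutator (pb σ τ) : Subgroup (pb σ τ)) →* σ.ker :=
    ((pbFst σ τ).comp (Subgroup.subtype _)).codRestrict σ.ker (fun w => w.2.1)
  let r₂ : (κ.ker ⊓ commutator (pb σ τ) : Subgroup (pb σ τ)) →* τ.ker :=
    ((pbSnd σ τ).comp (Subgroup.subtype _)).codRestrict τ.ker (fun w => by
      have h1 : σ (pbFst σ τ w.1) = 1 := w.2.1
      rw [pb_comm] at h1
      exact h1)
  have hr₁ : Function.Surjective r₁ := by
    intro z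
    obtain ⟨w, hw, hwz⟩ := exists_mem_commutator_of_surjective (pbFst σ τ) hp₁ (hσ.2.2 z.2)
    refine ⟨⟨w, ?_, hw⟩, Subtype.ext hwz⟩
    show σ (pbFst σ τ w) = 1
    rw [hwz]
    exact z.2
  have hr₂ : Function.Surjective r₂ := by
    intro z
    obtain ⟨w, hw, hwz⟩ := exists_mem_commutator_of_surjective (pbSnd σ τ) hp₂ (hτ.2.2 z.2)
    refine ⟨⟨w, ?_, hw⟩, Subtype.ext hwz⟩
    show σ (pbFst σ τ w) = 1
    rw [pb_comm, hwz]
    exact z.2
  have hinj : Function.Injective r₁ := by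
    rw [injective_iff_map_eq_one]
    intro w hw
    have hw1 : pbFst σ τ w.1 = 1 := congrArg Subtype.val hw
    by_contra hne
    have hb : r₂ w ≠ 1 := by
      intro h
      apply hne
      have hw2 : pbSnd σ τ w.1 = 1 := congrArg Subtype.val h
      apply Subtype.ext
      apply Subtype.ext
      exact Prod.ext hw1 hw2
    letI : CommGroup τ.ker :=
      { (inferInstance : Group τ.ker) with
        mul_comm := fun a b => Subtype.ext (mem_center_iff.mp (hτ.2.1 b.2) a.1) }
    obtain ⟨lam, hlam⟩ := exists_char_ne_one hb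
    obtain ⟨n, ρ, hρc, hρ1⟩ := exists_rep_of_char τ hτ.1 hτ.2.1 lam
    let q := QuotientGroup.mk' (center (GL (Fin n) ℂ))
    have hk : τ.ker ≤ (q.comp ρ).ker := by
      intro z hz
      exact (QuotientGroup.eq_one_iff _).mpr (hρc ⟨z, hz⟩)
    let γ : Q →* (GL (Fin n) ℂ ⧸ center (GL (Fin n) ℂ)) := τ.liftOfSurjective hτ.1 ⟨q.comp ρ, hk⟩
    have hγ : ∀ d, γ (τ d) = q (ρ d) := fun d => MonoidHom.liftOfRightInverse_comp_apply _ _ _ _ _
    obtain ⟨ρ', hρ'⟩ := hlift n γ
    have hagree := eq_on_commutator_of_central (ρ.comp (pbSnd σ τ)) (ρ'.comp (pbFst σ τ)) (by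
      intro y
      rw [← QuotientGroup.eq_one_iff]
      show q ((ρ' (pbFst σ τ y))⁻¹ * ρ (pbSnd σ τ y)) = 1
      have h1 : q (ρ' (pbFst σ τ y)) = γ (σ (pbFst σ τ y)) := DFunLike.congr_fun hρ' _
      rw [map_mul, map_inv, h1, pb_comm, hγ]
      simp) w.1 w.2.2
    have h2 : ρ (pbSnd σ τ w.1) = 1 := by
      have : ρ (pbSnd σ τ w.1) = ρ' (pbFst σ τ w.1) := hagree
      rw [this, hw1, map_one]
    exact hlam (hρ1 (r₂ w) h2)
  let E := MulEquiv.ofBijective r₁ ⟨hinj, hr₁⟩
  exact ⟨r₂.comp E.symm.toMonoidHom, hr₂.comp E.symm.surjective⟩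

end Cfsg.Agent.Lib.Helper41
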