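import Cfsg.Agent.Lib.Helper41.SchurPullback
import Mathlib.Algebra.Category.Grp.Injective
import Mathlib.Algebra.Module.Injective
import Mathlib.GroupTheory.Divisible

set_option autoImplicit false

namespace Cfsg.Agent.Lib.Helper41

open Subgroup
open scoped commutatorElement

universe u v w

/-- Divisible abelian groups are injective (multiplicative form). -/
theorem exists_extension_of_divisible {M N T : Type*} [CommGroup M] [CommGroup N] [CommGroup T]
    (hdiv : ∀ (t : T) (m : ℕ), 0 < m → ∃ w : T, w ^ m = t)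
    (f : M →* N) (hf : Function.Injective f) (g : M →* T) : ∃ h : N →* T, h.comp f = g := by
  have : DivisibleBy (Additive T) ℕ := divisibleByOfSMulRightSurj _ _ (by
    intro n hn a
    obtain ⟨w, hw⟩ := hdiv a.toMul n (Nat.pos_of_ne_zero hn)
    exact ⟨Additive.ofMul w, by
      show Additive.ofMul (w ^ n) = a
      rw [hw]; rfl⟩)
  have : DivisibleBy (Additive T) ℤ := AddGroup.divisibleByIntOfDivisibleByNat _
  have hB := Module.Baer.of_divisible (Additive T)
  obtain ⟨h, hh⟩ := hB.extension_property_addMonoidHom (MonoidHom.toAdditive f) hf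
    (MonoidHom.toAdditive g)
  refine ⟨MonoidHom.toAdditive.symm h, ?_⟩
  refine MonoidHom.ext fun x => ?_
  have := DFunLike.congr_fun hh (Additive.ofMul x)
  exact this

/-- Two homomorphisms that agree modulo the centre agree on the commutator subgroup. -/
theorem eq_on_commutator_of_central {P G : Type*} [Group P] [Group G] (f g : P →* G)
    (h : ∀ y, (g y)⁻¹ * f y ∈ center G) : ∀ y ∈ commutator P, f y = g y := by
  have : commutator P ≤ f.eqLocus g := by
    rw [commutator_def, Subgroup.commutator_le]
    intro x _ y _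
    show f ⁅x, y⁆ = g ⁅x, y⁆
    rw [map_commutatorElement, map_commutatorElement]
    have hx : f x = g x * ((g x)⁻¹ * f x) := by group
    have hy : f y = g y * ((g y)⁻¹ * f y) := by group
    rw [hx, hy, comm_mul_central_left _ _ _ (h x), comm_mul_central_right _ _ _ (h y)]
  exact fun y hy => this hy

open scoped IsMulCommutative in
/-- If `p₁ : P → Γ` is surjective with kernel the central "fibre" `{(1,z)}` meeting `P'` trivially and
the centre of `G` is divisible, the second projection can be corrected to factor through `Γ`. -/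
theorem exists_lift_of_inf_eq_bot {Γ G : Type*} [Group Γ] [Group G]
    (hdiv : ∀ z ∈ center G, ∀ m : ℕ, 0 < m → ∃ w ∈ center G, w ^ m = z)
    (δ : Γ →* G ⧸ center G)
    (hbot : ∀ y ∈ commutator (pb δ (QuotientGroup.mk' (center G))),
      pbFst δ (QuotientGroup.mk' (center G)) y = 1 → y = 1) :
    ∃ ρ : Γ →* G, (QuotientGroup.mk' (center G)).comp ρ = δ := by
  set q := QuotientGroup.mk' (center G) with hq
  have hqs : Function.Surjective q := QuotientGroup.mk'_surjective _
  have hp₁ : Function.Surjective (pbFst δ q) := pbFst_surjective δ q hqs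
  -- the inclusion of the centre in the abelianization
  let j₀ : center G →* pb δ q :=
    { toFun := fun z => ⟨(1, z.1), by
        rw [mem_pb, map_one]
        exact ((QuotientGroup.eq_one_iff _).mpr z.2).symm⟩
      map_one' := rfl
      map_mul' := fun a b => by
        apply Subtype.ext
        simp }
  let j : center G →* Abelianization (pb δ q) := Abelianization.of.comp j₀
  have hj : Function.Injective j := by
    rw [injective_iff_map_eq_one]
    intro z hz
    have h1 : j₀ z ∈ commutator (pb δ q) := by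
      rw [← Abelianization.ker_of]
      exact hz
    have h2 := hbot _ h1 rfl
    have h3 : (j₀ z).1.2 = 1 := by rw [h2]; rfl
    exact Subtype.ext h3
  obtain ⟨θ, hθ⟩ := exists_extension_of_divisible (T := center G) (by
    intro t m hm
    obtain ⟨w, hw, hwt⟩ := hdiv t.1 t.2 m hm
    exact ⟨⟨w, hw⟩, Subtype.ext hwt⟩) j hj (MonoidHom.id _)
  let ρ' : pb δ q →* G := MonoidHom.mk' (fun y => pbSnd δ q y * ((θ (Abelianization.of y)).1)⁻¹) (by
    intro a b
    have hc := mem_center_iff.mp (inv_mem (θ (Abelianization.of a)).2)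
    simp only [map_mul, Subgroup.coe_mul, mul_inv_rev]
    have hc' := hc (pbSnd δ q b * ((θ (Abelianization.of b)).1)⁻¹)
    calc pbSnd δ q a * pbSnd δ q b * (((θ (Abelianization.of b)).1)⁻¹ *
          ((θ (Abelianization.of a)).1)⁻¹)
        = pbSnd δ q a * ((pbSnd δ q b * ((θ (Abelianization.of b)).1)⁻¹) *
          ((θ (Abelianization.of a)).1)⁻¹) := by group
      _ = _ := by rw [hc']; group)
  have hker : (pbFst δ q).ker ≤ ρ'.ker := by
    intro y hy
    have h1 : y.1.1 = 1 := hy
    have h2 : y.1.2 ∈ center G := by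
      rw [← QuotientGroup.eq_one_iff]
      have := y.2
      rw [mem_pb, h1, map_one] at this
      exact this.symm
    have h3 : y = j₀ ⟨y.1.2, h2⟩ := by
      apply Subtype.ext
      exact Prod.ext h1 rfl
    have h4 : θ (Abelianization.of y) = ⟨y.1.2, h2⟩ := by
      have := DFunLike.congr_fun hθ ⟨y.1.2, h2⟩
      have h5 : θ (Abelianization.of y) = θ (Abelianization.of (j₀ ⟨y.1.2, h2⟩)) :=
        congrArg (fun t => θ (Abelianization.of t)) h3
      rw [h5]
      exact this
    show pbSnd δ q y * ((θ (Abelianization.of y)).1)⁻¹ = 1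
    rw [h4]
    simp
  refine ⟨(pbFst δ q).liftOfSurjective hp₁ ⟨ρ', hker⟩, ?_⟩
  refine MonoidHom.ext fun x => ?_
  obtain ⟨y, rfl⟩ := hp₁ x
  rw [MonoidHom.comp_apply, MonoidHom.liftOfRightInverse_comp_apply]
  show q (pbSnd δ q y * ((θ (Abelianization.of y)).1)⁻¹) = _
  rw [map_mul, pb_comm, map_inv]
  have : q ((θ (Abelianization.of y)).1) = 1 := (QuotientGroup.eq_one_iff _).mpr (θ _).2
  rw [this]
  simp

/-- Projective "representations" in a group with divisible centre lift to any Schur cover. -/
theorem exists_lift_of_cover {Q : Type u} [Group Q] {A : Type v} [CommGroup A]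
    (hA : HasSchurMultiplier Q A) {Γ : Type w} [Group Γ] [Finite Γ] (σ : Γ →* Q)
    (hσ : IsStemExtension σ) (hk : Nonempty (σ.ker ≃* A)) {G : Type*} [Group G]
    (hdiv : ∀ z ∈ center G, ∀ m : ℕ, 0 < m → ∃ w ∈ center G, w ^ m = z)
    (γ : Q →* G ⧸ center G) :
    ∃ ρ : Γ →* G, (QuotientGroup.mk' (center G)).comp ρ = γ.comp σ := by
  apply exists_lift_of_inf_eq_bot hdiv
  set q := QuotientGroup.mk' (center G) with hq
  set δ := γ.comp σ with hδ
  have hqs : Function.Surjective q := QuotientGroup.mk'_surjective _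
  have hp₁ : Function.Surjective (pbFst δ q) := pbFst_surjective δ q hqs
  let κ : pb δ q →* Q := σ.comp (pbFst δ q)
  have hκ : Function.Surjective κ := hσ.1.comp hp₁
  have hc : κ.ker ≤ center (pb δ q) := by
    intro y hy
    have h1 : y.1.1 ∈ σ.ker := hy
    have h2 : y.1.2 ∈ center G := by
      rw [← QuotientGroup.eq_one_iff]
      have := y.2
      rw [mem_pb] at this
      have h3 : δ y.1.1 = 1 := by
        show γ (σ y.1.1) = 1
        rw [MonoidHom.mem_ker.mp h1, map_one]
      rw [h3] at this
      exact this.symm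
    rw [mem_center_iff]
    intro x
    apply Subtype.ext
    exact Prod.ext (mem_center_iff.mp (hσ.2.1 h1) x.1.1) (mem_center_iff.mp h2 x.1.2)
  obtain ⟨φ, hφ⟩ := hsm_surj_of_central hA κ hκ hc
  have hAf := hsm_finite hA
  have hWf : Finite (κ.ker ⊓ commutator (pb δ q) : Subgroup (pb δ q)) := Finite.of_surjective φ hφ
  obtain ⟨e⟩ := hk
  let r : (κ.ker ⊓ commutator (pb δ q) : Subgroup (pb δ q)) →* σ.ker :=
    ((pbFst δ q).comp (Subgroup.subtype _)).codRestrict σ.ker (fun w => w.2.1)
  have hr : Function.Surjective r := by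
    intro z
    obtain ⟨w, hw, hwz⟩ := exists_mem_commutator_of_surjective (pbFst δ q) hp₁ (hσ.2.2 z.2)
    refine ⟨⟨w, ?_, hw⟩, Subtype.ext hwz⟩
    show σ (pbFst δ q w) = 1
    rw [hwz]
    exact z.2
  have hcard : Nat.card (κ.ker ⊓ commutator (pb δ q) : Subgroup (pb δ q)) ≤ Nat.card σ.ker := by
    rw [Nat.card_congr e.toEquiv]
    exact Nat.card_le_card_of_surjective φ hφ
  have hrb := hr.bijective_of_nat_card_le hcard
  intro y hy hy1
  have hyk : y ∈ κ.ker := by
    show σ (pbFst δ q y) = 1
    rw [hy1, map_one]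
  have : (⟨y, hyk, hy⟩ : (κ.ker ⊓ commutator (pb δ q) : Subgroup (pb δ q))) = 1 := by
    apply hrb.1
    apply Subtype.ext
    exact hy1
  exact congrArg Subtype.val this

end Cfsg.Agent.Lib.Helper41
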