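import Mathlib
import Cfsg.Prelude.Def_Transfer
import Cfsg.Prelude.Def_CaseTheorems
import Cfsg.Agent.Lib.Helper1.Fpf3
import Cfsg.Agent.Lib.Helper11.AxB
import Cfsg.Agent.Lib.Helper30.PStable2
import Cfsg.Agent.Lib.Helper12.MinNormal
import Cfsg.Agent.Lib.Helper14.Cores
import Cfsg.Agent.S0016

set_option autoImplicit false

namespace Cfsg.Agent.Lib.Helper41

open Subgroup

/-- an element whose order is coprime to the index of a normal subgroup lies in it -/
theorem mem_of_coprime_index {G : Type*} [Group G] (N : Subgroup G) [N.Normal] {x : G}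
    (h : (orderOf x).Coprime N.index) : x ∈ N := by
  have h1 : orderOf (QuotientGroup.mk' N x) ∣ orderOf x := orderOf_map_dvd _ x
  have h2 : orderOf (QuotientGroup.mk' N x) ∣ N.index := orderOf_dvd_natCard _
  have h3 : orderOf (QuotientGroup.mk' N x) = 1 := Nat.eq_one_of_dvd_coprimes h h1 h2
  rw [orderOf_eq_one_iff] at h3
  exact (QuotientGroup.eq_one_iff x).1 h3

/-- an element of `2`-power order and odd order is trivial -/
theorem eq_one_of_two_pow_of_odd {G : Type*} [Group G] {x : G} {k : ℕ} (h : x ^ 2 ^ k = 1)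
    (ho : Odd (orderOf x)) : x = 1 := by
  have h1 : orderOf x ∣ 2 ^ k := orderOf_dvd_of_pow_eq_one h
  have h2 : (orderOf x).Coprime (2 ^ k) := (Nat.Coprime.pow_right k ho.coprime_two_right)
  have h3 : orderOf x = 1 := Nat.eq_one_of_dvd_coprimes h2 dvd_rfl h1
  exact orderOf_eq_one_iff.1 h3

/-- the key property: no involution commutes with a nontrivial element of odd order -/
theorem eq_one_of_commute_involution {H : Type*} [Group H] [Finite H] (hsol : Group.IsSolvable H)
    (hO : Cfsg.oddCore H = ⊥)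
    (hI : ∀ t : H, orderOf t = 2 →
      Cfsg.HasNormalPComplement 2 ↥(Subgroup.centralizer ({t} : Set H)))
    {t x : H} (ht : orderOf t = 2) (hx : Odd (orderOf x)) (htx : Commute t x) : x = 1 := by
  have : Fact (Nat.Prime 2) := ⟨Nat.prime_two⟩
  set Y := Cfsg.pCore 2 H with hY
  have hYn : Y.Normal := Cfsg.Agent.Lib.Helper30.pCore_normal' 2 H
  have hYp : IsPGroup 2 Y := Cfsg.Agent.Lib.Helper14.isPGroup_pCore
  have hC : Subgroup.centralizer (Y : Set H) ≤ Y :=
    Cfsg.Agent.Lib.Helper30.centralizer_pCore_le_of_solvable hO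
  obtain ⟨P, N, hN, hNP⟩ := hI t ht
  have hidx : N.index = Nat.card P := hNP.symm.index_eq_card
  obtain ⟨n, hn⟩ := IsPGroup.iff_card.1 P.2
  have hNodd : Odd (Nat.card N) := by
    have h1 : Nat.card N = (P : Subgroup (Subgroup.centralizer ({t} : Set H))).index :=
      hNP.index_eq_card.symm
    rw [h1]
    have := P.not_dvd_index
    exact Nat.not_even_iff_odd.1 (fun h => this h.two_dvd)
  have hxC : x ∈ Subgroup.centralizer ({t} : Set H) := by
    rw [Subgroup.mem_centralizer_singleton_iff]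
    exact htx.symm.eq
  have hxN : (⟨x, hxC⟩ : Subgroup.centralizer ({t} : Set H)) ∈ N := by
    apply mem_of_coprime_index
    rw [hidx, hn, Subgroup.orderOf_mk]
    exact Nat.Coprime.pow_right n hx.coprime_two_right
  have key : Subgroup.zpowers x ≤ Subgroup.centralizer (Y : Set H) := by
    apply Cfsg.Agent.Lib.Helper11.thompson_AxB (p := 2) (Subgroup.zpowers t) (Subgroup.zpowers x)
    · apply IsPGroup.of_card (n := 1)
      rw [Nat.card_zpowers, ht, pow_one]
    · rw [Nat.card_zpowers]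
      exact hx.coprime_two_right
    · rw [Subgroup.zpowers_le, Subgroup.mem_centralizer_iff]
      intro y hy
      obtain ⟨k, rfl⟩ := Subgroup.mem_zpowers_iff.1 hy
      exact (htx.zpow_left k).eq
    · exact hYp
    · rw [Subgroup.normalizer_eq_top]; exact le_top
    · rw [Subgroup.normalizer_eq_top]; exact le_top
    · rw [Subgroup.zpowers_le, Subgroup.mem_centralizer_iff]
      rintro y ⟨hyY, hyT⟩
      have hyt : y ∈ Subgroup.centralizer ({t} : Set H) := by
        rw [Subgroup.mem_centralizer_singleton_iff]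
        exact ((Subgroup.mem_centralizer_iff.1 hyT) t (Subgroup.mem_zpowers t)).symm
      -- the commutator lies in `N` and in `Y`
      have hc1 : (⟨y, hyt⟩ * ⟨x, hxC⟩ * ⟨y, hyt⟩⁻¹ * ⟨x, hxC⟩⁻¹ :
          Subgroup.centralizer ({t} : Set H)) ∈ N :=
        N.mul_mem (hN.conj_mem _ hxN _) (N.inv_mem hxN)
      have hc2 : y * x * y⁻¹ * x⁻¹ ∈ Y := by
        have : y * x * y⁻¹ * x⁻¹ = y * (x * y⁻¹ * x⁻¹) := by group
        rw [this]
        exact Y.mul_mem hyY (hYn.conj_mem _ (Y.inv_mem hyY) x)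
      obtain ⟨k, hk⟩ := hYp ⟨_, hc2⟩
      have hk' : (y * x * y⁻¹ * x⁻¹) ^ 2 ^ k = 1 := congrArg Subtype.val hk
      have hodd : Odd (orderOf (y * x * y⁻¹ * x⁻¹)) := by
        have h1 : orderOf (⟨_, hc1⟩ : N) ∣ Nat.card N := orderOf_dvd_natCard _
        rw [Subgroup.orderOf_mk] at h1
        have h2 : orderOf (⟨y, hyt⟩ * ⟨x, hxC⟩ * ⟨y, hyt⟩⁻¹ * ⟨x, hxC⟩⁻¹ :
          Subgroup.centralizer ({t} : Set H)) = orderOf (y * x * y⁻¹ * x⁻¹) := by
          rw [← Subgroup.orderOf_coe]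
          rfl
        rw [h2] at h1
        exact hNodd.of_dvd_nat h1
      have h1 := eq_one_of_two_pow_of_odd hk' hodd
      have : y * x = (y * x * y⁻¹ * x⁻¹) * (x * y) := by group
      rw [this, h1, one_mul]
  have hxY : x ∈ Y := hC (key (Subgroup.mem_zpowers x))
  obtain ⟨k, hk⟩ := hYp ⟨x, hxY⟩
  exact eq_one_of_two_pow_of_odd (congrArg Subtype.val hk) hx

/-- no nontrivial `2`-element commutes with a nontrivial element of odd order -/
theorem eq_one_of_commute_two_elt {H : Type*} [Group H]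
    (hK : ∀ t x : H, orderOf t = 2 → Odd (orderOf x) → Commute t x → x = 1)
    {s x : H} (hs : s ≠ 1) {k : ℕ} (hsk : s ^ 2 ^ k = 1) (hx : Odd (orderOf x))
    (hsx : Commute s x) : x = 1 := by
  obtain ⟨j, -, hj⟩ := (Nat.dvd_prime_pow Nat.prime_two).1 (orderOf_dvd_of_pow_eq_one hsk)
  have hj0 : j ≠ 0 := by
    rintro rfl
    rw [pow_zero, orderOf_eq_one_iff] at hj
    exact hs hj
  obtain ⟨i, rfl⟩ := Nat.exists_eq_succ_of_ne_zero hj0
  apply hK (s ^ 2 ^ i) x _ hx (hsx.pow_left _)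
  rw [orderOf_pow_of_dvd (by positivity) (by rw [hj]; exact pow_dvd_pow 2 (Nat.le_succ i)), hj,
    Nat.succ_eq_add_one, pow_succ, Nat.mul_div_cancel_left _ (by positivity)]

/-- a subgroup containing the kernel of a homomorphism to a cyclic group is normal with cyclic
quotient -/
theorem normal_cyclic_of_ker_le {H Z : Type*} [Group H] [Group Z] [IsCyclic Z] (φ : H →* Z)
    (L : Subgroup H) (h : φ.ker ≤ L) : L.Normal ∧ ∀ _ : L.Normal, IsCyclic (H ⧸ L) := by
  have hn : L.Normal := by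
    constructor
    intro l hl g
    have h1 : g * l * g⁻¹ * l⁻¹ ∈ φ.ker := by
      rw [MonoidHom.mem_ker, map_mul, map_mul, map_mul, map_inv, map_inv]
      obtain ⟨z, hz⟩ := IsCyclic.exists_generator (α := Z)
      obtain ⟨a, ha⟩ := Subgroup.mem_zpowers_iff.1 (hz (φ g))
      obtain ⟨b, hb⟩ := Subgroup.mem_zpowers_iff.1 (hz (φ l))
      rw [← ha, ← hb, ← zpow_add, ← zpow_neg, ← zpow_add, ← zpow_neg, ← zpow_add]
      have : a + b + -a + -b = 0 := by ring
      rw [this, zpow_zero]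
    have h2 : g * l * g⁻¹ = (g * l * g⁻¹ * l⁻¹) * l := by group
    rw [h2]
    exact L.mul_mem (h h1) hl
  refine ⟨hn, fun hn' => ?_⟩
  have hc : IsCyclic φ.range := inferInstance
  let f : φ.range →* H ⧸ L :=
    (QuotientGroup.map φ.ker L (MonoidHom.id H) h).comp
      (QuotientGroup.quotientKerEquivRange φ).symm.toMonoidHom
  apply isCyclic_of_surjective f
  intro q
  obtain ⟨g, rfl⟩ := QuotientGroup.mk_surjective q
  refine ⟨QuotientGroup.quotientKerEquivRange φ (g : H ⧸ φ.ker), ?_⟩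
  simp only [f, MonoidHom.comp_apply, MulEquiv.coe_toMonoidHom, MulEquiv.symm_apply_apply]
  rfl

/-- the automorphism group of a group of prime order is cyclic -/
theorem isCyclic_mulAut_of_prime_card {Z : Type*} [Group Z] {r : ℕ} (hr : r.Prime)
    (h : Nat.card Z = r) : IsCyclic (MulAut Z) := by
  have : Fact (Nat.card Z).Prime := ⟨h ▸ hr⟩
  have hZ : IsCyclic Z := isCyclic_of_prime_card (p := Nat.card Z) rfl
  have hc : IsCyclic (ZMod (Nat.card Z))ˣ := inferInstance
  exact isCyclic_of_surjective (IsCyclic.mulAutMulEquiv Z).symm (IsCyclic.mulAutMulEquiv Z).symm.surjective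

/-- the action on a chief factor above `O_2(H)` -/
theorem exists_hom_cyclic.{u} {H : Type u} [Group H] [Finite H] (hsol : Group.IsSolvable H)
    (hK : ∀ s x : H, s ≠ 1 → ∀ k : ℕ, s ^ 2 ^ k = 1 → Odd (orderOf x) → Commute s x → x = 1)
    (hbot : Cfsg.pCore 2 H ≠ ⊥) (htop : Cfsg.pCore 2 H ≠ ⊤) :
    ∃ (Z : Type u) (_ : Group Z) (_ : IsCyclic Z) (φ : H →* Z),
      ∀ s ∈ φ.ker, ∀ k : ℕ, s ^ 2 ^ k = 1 → s ∈ Cfsg.pCore 2 H := by
  have : Fact (Nat.Prime 2) := ⟨Nat.prime_two⟩
  set Y := Cfsg.pCore 2 H with hY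
  have hYn : Y.Normal := Cfsg.Agent.Lib.Helper30.pCore_normal' 2 H
  have hYp : IsPGroup 2 Y := Cfsg.Agent.Lib.Helper14.isPGroup_pCore
  have hnt : Nontrivial (H ⧸ Y) := by
    rw [← not_subsingleton_iff_nontrivial]
    intro h
    exact htop (QuotientGroup.subgroup_eq_top_of_subsingleton Y h)
  obtain ⟨Mb, hMb⟩ := Cfsg.Agent.Lib.Helper12.exists_minNormal (G := H ⧸ Y)
  obtain ⟨r, hr, hexp, -⟩ := hMb.exists_prime
  have hMn : Mb.Normal := hMb.1
  have : Fact r.Prime := ⟨hr⟩
  set π := QuotientGroup.mk' Y with hπ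
  have hπs : Function.Surjective π := QuotientGroup.mk'_surjective Y
  have hker : π.ker = Y := QuotientGroup.ker_mk' Y
  have hMbp : IsPGroup r Mb := by
    intro x
    exact ⟨1, by rw [pow_one]; exact Subtype.ext (by simpa using hexp x x.2)⟩
  have hr2 : r ≠ 2 := by
    rintro rfl
    have h1 : IsPGroup 2 (Mb.comap π) := hMbp.comap_of_ker_isPGroup π (by rw [hker]; exact hYp)
    have h2 : Mb.comap π ≤ Y := Cfsg.Agent.Lib.Helper14.le_pCore inferInstance h1
    apply hMb.2.1
    rw [eq_bot_iff]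
    intro m hm
    obtain ⟨g, rfl⟩ := hπs m
    have : g ∈ Y := h2 hm
    rw [Subgroup.mem_bot]
    exact (QuotientGroup.eq_one_iff g).2 this
  have hrodd : Odd r := hr.odd_of_ne_two hr2
  set M := Mb.comap π with hM
  let f : M →* Mb := π.subgroupComap Mb
  have hf : Function.Surjective f := MonoidHom.subgroupComap_surjective_of_surjective π Mb hπs
  obtain ⟨R⟩ : Nonempty (Sylow r M) := inferInstance
  have hRtop : ((R.mapSurjective hf : Sylow r Mb) : Subgroup Mb) = ⊤ :=
    ((R.mapSurjective hf).3 (hMbp.to_subgroup ⊤) le_top).symm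
  set R' := (R : Subgroup M).map M.subtype with hR'
  have hR'p : IsPGroup r R' := R.2.map _
  have hodd : ∀ e ∈ R', Odd (orderOf e) := by
    intro e he
    obtain ⟨k, hk⟩ := (IsPGroup.iff_orderOf.1 hR'p) ⟨e, he⟩
    rw [Subgroup.orderOf_mk] at hk
    rw [hk]
    exact hrodd.pow
  have hfpf : ∀ e ∈ R', e ≠ 1 → Y ⊓ Subgroup.centralizer {e} = ⊥ := by
    intro e he he1
    rw [eq_bot_iff]
    rintro y ⟨hyY, hyc⟩
    rw [Subgroup.mem_bot]
    by_contra hy1
    obtain ⟨k, hk⟩ := hYp ⟨y, hyY⟩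
    apply he1
    apply hK y e hy1 k (congrArg Subtype.val hk) (hodd e he)
    exact (Subgroup.mem_centralizer_singleton_iff.1 hyc)
  have hR'M : ∀ e ∈ R', π e ∈ Mb := by
    rintro _ ⟨e, -, rfl⟩
    exact e.2
  have hpow : ∀ e ∈ R', e ^ r = 1 := by
    intro e he
    have h1 : e ^ r ∈ Y := by
      rw [← hker, MonoidHom.mem_ker, map_pow]
      exact hexp _ (hR'M e he)
    obtain ⟨k, hk⟩ := hYp ⟨_, h1⟩
    apply eq_one_of_two_pow_of_odd (congrArg Subtype.val hk)
    exact (hodd e he).of_dvd_nat (orderOf_pow_dvd r)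
  have hsurj : ∀ m ∈ Mb, ∃ e ∈ R', π e = m := by
    intro m hm
    have h1 : (⟨m, hm⟩ : Mb) ∈ ((R.mapSurjective hf : Sylow r Mb) : Subgroup Mb) := by
      rw [hRtop]; trivial
    obtain ⟨e, he, hem⟩ := h1
    exact ⟨e.1, ⟨e, he, rfl⟩, congrArg Subtype.val hem⟩
  obtain ⟨m0, hm0, hm01⟩ : ∃ m ∈ Mb, m ≠ 1 := by
    by_contra hcon
    push Not at hcon
    exact hMb.2.1 ((Subgroup.eq_bot_iff_forall _).2 hcon)
  obtain ⟨x, hxR, hxm⟩ := hsurj m0 hm0
  have hx1 : x ≠ 1 := by
    rintro rfl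
    rw [map_one] at hxm
    exact hm01 hxm.symm
  have hord : ∀ e ∈ R', e ≠ 1 → Nat.card (Subgroup.zpowers e) = r := by
    intro e he he1
    rw [Nat.card_zpowers]
    exact orderOf_eq_prime (hpow e he) he1
  have hcyc : ∀ e ∈ R', e ∈ Subgroup.zpowers x := by
    intro e he
    by_cases he1 : e = 1
    · rw [he1]; exact Subgroup.one_mem _
    · have := Cfsg.Agent.Lib.Helper1.fpf_pgroup_unique r R' Y hR'p
        (by rw [Subgroup.normalizer_eq_top]; exact le_top) hbot hfpf
        (Subgroup.zpowers e) (Subgroup.zpowers x) (Subgroup.zpowers_le.2 he)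
        (Subgroup.zpowers_le.2 hxR) (hord e he he1) (hord x hxR hx1)
      rw [← this]
      exact Subgroup.mem_zpowers e
  have hMbeq : Mb = Subgroup.zpowers (π x) := by
    apply le_antisymm
    · intro m hm
      obtain ⟨e, he, rfl⟩ := hsurj m hm
      obtain ⟨k, rfl⟩ := Subgroup.mem_zpowers_iff.1 (hcyc e he)
      rw [map_zpow]
      exact Subgroup.zpow_mem_zpowers _ _
    · rw [Subgroup.zpowers_le]
      exact hR'M x hxR
  have hcard : Nat.card Mb = r := by
    rw [hMbeq, Nat.card_zpowers]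
    apply orderOf_eq_prime
    · rw [← map_pow, hpow x hxR, map_one]
    · rw [hxm]; exact hm01
  refine ⟨MulAut Mb, inferInstance, isCyclic_mulAut_of_prime_card hr hcard,
    (MulAut.conjNormal (H := Mb)).comp π, ?_⟩
  intro s hs k hsk
  have hcomm : π s * π x = π x * π s := by
    rw [MonoidHom.mem_ker, MonoidHom.comp_apply] at hs
    have h1 := congrArg (fun a : MulAut Mb => ((a ⟨π x, hR'M x hxR⟩ : Mb) : H ⧸ Y)) hs
    simp only [MulAut.conjNormal_apply, MulAut.one_apply] at h1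
    exact mul_inv_eq_iff_eq_mul.1 h1
  set W := (Subgroup.zpowers (π s)).comap π with hW
  have hWp : IsPGroup 2 W := by
    apply IsPGroup.comap_of_ker_isPGroup _ π (by rw [hker]; exact hYp)
    apply IsPGroup.of_card (n := (orderOf (π s)).factorization 2)
    rw [Nat.card_zpowers]
    obtain ⟨j, -, hj⟩ := (Nat.dvd_prime_pow Nat.prime_two).1
      (orderOf_dvd_of_pow_eq_one (show (π s) ^ 2 ^ k = 1 by rw [← map_pow, hsk, map_one]))
    rw [hj, Nat.prime_two.factorization_pow, Finsupp.single_eq_same]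
  have hYW : Y ≤ W := by
    intro y hy
    have h1 : π y = 1 := (QuotientGroup.eq_one_iff y).2 hy
    rw [hW, Subgroup.mem_comap, h1]
    exact Subgroup.one_mem _
  have hWc : ∀ w ∈ W, w⁻¹ * x * w * x⁻¹ ∈ Y := by
    intro w hw
    obtain ⟨j, hj⟩ := Subgroup.mem_zpowers_iff.1 (Subgroup.mem_comap.1 hw)
    rw [← hker, MonoidHom.mem_ker, map_mul, map_mul, map_mul, map_inv, map_inv, ← hj]
    have hc : Commute (π s) (π x) := hcomm
    have := (hc.zpow_left j).eq
    rw [mul_assoc _ (π x), ← this]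
    group
  have hinj : Function.Injective (fun w : W => (⟨_, hWc w w.2⟩ : Y)) := by
    intro w v hwv
    have h1 : (w : H)⁻¹ * x * w * x⁻¹ = (v : H)⁻¹ * x * v * x⁻¹ := congrArg Subtype.val hwv
    by_contra hne
    have hne' : (v : H) * (w : H)⁻¹ ≠ 1 := by
      intro h
      apply hne
      exact Subtype.ext (mul_inv_eq_one.1 h).symm
    obtain ⟨j, hj⟩ := hWp (v * w⁻¹)
    apply hx1
    apply hK _ x hne' j (congrArg Subtype.val hj) (hodd x hxR)
    have h2 : (w : H)⁻¹ * x * w = (v : H)⁻¹ * x * v := mul_right_cancel h1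
    show (v : H) * (w : H)⁻¹ * x = x * ((v : H) * (w : H)⁻¹)
    have h3 : x = (w : H) * ((v : H)⁻¹ * x * v) * (w : H)⁻¹ := by rw [← h2]; group
    calc (v : H) * (w : H)⁻¹ * x = (v : H) * (w : H)⁻¹ * ((w : H) * ((v : H)⁻¹ * x * v) * (w : H)⁻¹) := by
          rw [← h3]
      _ = x * ((v : H) * (w : H)⁻¹) := by group
  have hle : Nat.card W ≤ Nat.card Y := Nat.card_le_card_of_injective _ hinj
  have hWY : Y = W := Subgroup.eq_of_le_of_card_ge hYW hle
  rw [hWY, hW, Subgroup.mem_comap]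
  exact Subgroup.mem_zpowers _

/-- for `C` normal, `|C : C ∩ L|` divides `|G : L|` -/
theorem relIndex_dvd_index_of_normal_right {G : Type*} [Group G] [Finite G] (L C : Subgroup G)
    [C.Normal] : L.relIndex C ∣ L.index := by
  have h1 : Nat.card (L ⊓ C : Subgroup G) * L.relIndex C = Nat.card C := by
    rw [← Subgroup.inf_relIndex_right L C, ← Subgroup.relIndex_bot_left, ← Subgroup.relIndex_bot_left]
    exact Subgroup.relIndex_mul_relIndex _ _ _ bot_le inf_le_right
  have h2 : Nat.card (L ⊓ C : Subgroup G) * C.relIndex L = Nat.card L := by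
    rw [← Subgroup.inf_relIndex_left L C, ← Subgroup.relIndex_bot_left, ← Subgroup.relIndex_bot_left]
    exact Subgroup.relIndex_mul_relIndex _ _ _ bot_le inf_le_left
  have h3 : Nat.card C * C.relIndex L = Nat.card (L ⊔ C : Subgroup G) := by
    rw [← Subgroup.relIndex_sup_right L C, ← Subgroup.relIndex_bot_left,
      ← Subgroup.relIndex_bot_left]
    exact Subgroup.relIndex_mul_relIndex _ _ _ bot_le le_sup_right
  have h4 : Nat.card L * L.relIndex (L ⊔ C) = Nat.card (L ⊔ C : Subgroup G) := by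
    rw [← Subgroup.relIndex_bot_left, ← Subgroup.relIndex_bot_left]
    exact Subgroup.relIndex_mul_relIndex _ _ _ bot_le le_sup_left
  have h5 : L.relIndex (L ⊔ C) = L.relIndex C := by
    have hpos : 0 < Nat.card L := Nat.card_pos
    apply Nat.eq_of_mul_eq_mul_left hpos
    rw [h4, ← h3, ← h1, ← h2]
    ring
  rw [← h5]
  exact Subgroup.relIndex_dvd_index_of_le le_sup_left

/-- structure of solvable groups with `O(H) = 1` and `2`-nilpotent involution centralizers -/
theorem two_nilp_structure.{u} {H : Type u} [Group H] [Finite H] (hsol : Group.IsSolvable H)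
    (hO : Cfsg.oddCore H = ⊥)
    (hI : ∀ t : H, orderOf t = 2 →
      Cfsg.HasNormalPComplement 2 ↥(Subgroup.centralizer ({t} : Set H)))
    (X : Subgroup H) (hXodd : Odd (Nat.card X)) (hXidx : ∃ k : ℕ, X.index = 2 ^ k) :
    (∀ x ∈ X, x ≠ 1 → ∀ y ∈ Cfsg.pCore 2 H, y ≠ 1 → x * y ≠ y * x) ∧
      (∀ (p : ℕ) [Fact p.Prime] (P : Sylow p ↥X), IsCyclic ↥(P : Subgroup ↥X)) ∧
      (X ⊔ Cfsg.pCore 2 H).Normal ∧
      ∀ hN : (X ⊔ Cfsg.pCore 2 H).Normal, IsCyclic (H ⧸ (X ⊔ Cfsg.pCore 2 H)) ∧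
        IsPGroup 2 (H ⧸ (X ⊔ Cfsg.pCore 2 H)) := by
  have : Fact (Nat.Prime 2) := ⟨Nat.prime_two⟩
  set Y := Cfsg.pCore 2 H with hY
  have hYn : Y.Normal := Cfsg.Agent.Lib.Helper30.pCore_normal' 2 H
  have hYp : IsPGroup 2 Y := Cfsg.Agent.Lib.Helper14.isPGroup_pCore
  have hC : Subgroup.centralizer (Y : Set H) ≤ Y :=
    Cfsg.Agent.Lib.Helper30.centralizer_pCore_le_of_solvable hO
  have hK0 : ∀ t x : H, orderOf t = 2 → Odd (orderOf x) → Commute t x → x = 1 :=
    fun t x ht hx htx => eq_one_of_commute_involution hsol hO hI ht hx htx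
  have hK : ∀ s x : H, s ≠ 1 → ∀ k : ℕ, s ^ 2 ^ k = 1 → Odd (orderOf x) → Commute s x → x = 1 :=
    fun s x hs k hsk hx hsx => eq_one_of_commute_two_elt hK0 hs hsk hx hsx
  have hXo : ∀ x ∈ X, Odd (orderOf x) := by
    intro x hx
    have h1 : orderOf (⟨x, hx⟩ : X) ∣ Nat.card X := orderOf_dvd_natCard _
    rw [Subgroup.orderOf_mk] at h1
    exact hXodd.of_dvd_nat h1
  have part1 : ∀ x ∈ X, x ≠ 1 → ∀ y ∈ Y, y ≠ 1 → x * y ≠ y * x := by
    intro x hx hx1 y hy hy1 hxy
    obtain ⟨k, hk⟩ := hYp ⟨y, hy⟩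
    exact hx1 (hK y x hy1 k (congrArg Subtype.val hk) (hXo x hx) hxy.symm)
  have htriv : Y = ⊥ → Subsingleton H := by
    intro hbot
    have h1 : (⊤ : Subgroup H) ≤ ⊥ := by
      rw [← hbot]
      refine le_trans ?_ hC
      rw [hbot]
      intro g _
      rw [Subgroup.mem_centralizer_iff]
      intro y hy
      rw [SetLike.mem_coe, Subgroup.mem_bot] at hy
      rw [hy, one_mul, mul_one]
    exact Subgroup.subsingleton_iff.1 ⟨fun a b => by
      rw [eq_bot_iff.2 (le_trans le_top h1 : a ≤ ⊥), eq_bot_iff.2 (le_trans le_top h1 : b ≤ ⊥)]⟩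
  have part2 : ∀ (p : ℕ) [Fact p.Prime] (P : Sylow p ↥X), IsCyclic ↥(P : Subgroup ↥X) := by
    intro p _ P
    by_cases hbot : Y = ⊥
    · have := htriv hbot
      infer_instance
    have huniq : ∀ A B : Subgroup (P : Subgroup X), Nat.card A = p → Nat.card B = p → A = B := by
      intro A B hA hB
      let f : (P : Subgroup X) →* H := X.subtype.comp (P : Subgroup X).subtype
      have hf : Function.Injective f :=
        X.subtype_injective.comp (P : Subgroup X).subtype_injective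
      have hle : ∀ Z : Subgroup (P : Subgroup X),
          Z.map f ≤ (⊤ : Subgroup (P : Subgroup X)).map f :=
        fun Z => Subgroup.map_mono le_top
      apply Subgroup.map_injective hf
      refine Cfsg.Agent.Lib.Helper1.fpf_pgroup_unique p
        ((⊤ : Subgroup (P : Subgroup X)).map f) Y ?_ ?_ hbot ?_ _ _ (hle A) (hle B) ?_ ?_
      · exact (P.isPGroup'.to_subgroup ⊤).map f
      · rw [Subgroup.normalizer_eq_top]
        exact le_top
      · rintro _ ⟨x, -, rfl⟩ hx
        rw [eq_bot_iff]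
        rintro y ⟨hyY, hyc⟩
        rw [Subgroup.mem_bot]
        by_contra hy1
        exact part1 _ (x : X).2 hx y hyY hy1 (Subgroup.mem_centralizer_singleton_iff.1 hyc).symm
      · rw [Subgroup.card_map_of_injective hf, hA]
      · rw [Subgroup.card_map_of_injective hf, hB]
    rcases Cfsg.Agent.S0016.result p P.isPGroup' huniq with h | ⟨rfl, -⟩
    · exact h
    · obtain ⟨n, hn⟩ := IsPGroup.iff_card.1 P.isPGroup'
      have h1 : Nat.card (P : Subgroup X) ∣ Nat.card X := Subgroup.card_subgroup_dvd_card _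
      have h2 : Odd (Nat.card (P : Subgroup X)) := hXodd.of_dvd_nat h1
      have h3 : Nat.card (P : Subgroup X) = 1 := by
        rcases Nat.eq_zero_or_pos n with rfl | hn0
        · rw [hn, pow_zero]
        · exfalso
          rw [hn] at h2
          exact (Nat.not_even_iff_odd.2 h2) ((Nat.even_pow.2 ⟨even_two, hn0.ne'⟩))
      have : Subsingleton (P : Subgroup X) := (Nat.card_eq_one_iff_unique.1 h3).1
      infer_instance
  obtain ⟨k, hk⟩ := hXidx
  have hLidx : (X ⊔ Y).index ∣ 2 ^ k := by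
    rw [← hk]
    exact Subgroup.index_dvd_of_le le_sup_left
  have part34 : (X ⊔ Y).Normal ∧ ∀ _ : (X ⊔ Y).Normal, IsCyclic (H ⧸ (X ⊔ Y)) := by
    by_cases htop : Y = ⊤
    · have h1 : X ⊔ Y = ⊤ := by rw [htop, sup_top_eq]
      rw [h1]
      refine ⟨inferInstance, fun _ => ?_⟩
      have : Subsingleton (H ⧸ (⊤ : Subgroup H)) := QuotientGroup.subsingleton_quotient_top
      infer_instance
    by_cases hbot : Y = ⊥
    · exfalso
      have := htriv hbot
      exact htop (Subsingleton.elim _ _)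
    obtain ⟨Z, _, _, φ, hφ⟩ := exists_hom_cyclic hsol hK hbot htop
    apply normal_cyclic_of_ker_le φ
    rw [← Subgroup.relIndex_eq_one]
    have hd1 : (X ⊔ Y).relIndex φ.ker ∣ 2 ^ k :=
      (relIndex_dvd_index_of_normal_right (X ⊔ Y) φ.ker).trans hLidx
    have hd2 : (X ⊔ Y).relIndex φ.ker ∣ Y.relIndex φ.ker :=
      Subgroup.relIndex_dvd_of_le_left _ le_sup_right
    have hd3 : ¬ 2 ∣ Y.relIndex φ.ker := by
      obtain ⟨S⟩ : Nonempty (Sylow 2 φ.ker) := inferInstance
      have hS : (S : Subgroup φ.ker) ≤ Y.subgroupOf φ.ker := by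
        intro s hs
        obtain ⟨j, hj⟩ := S.2 ⟨s, hs⟩
        rw [Subgroup.mem_subgroupOf]
        exact hφ s.1 s.2 j (congrArg (fun a : (S : Subgroup φ.ker) => ((a : φ.ker) : H)) hj)
      intro h2
      exact S.not_dvd_index (h2.trans (Subgroup.index_dvd_of_le hS))
    obtain ⟨j, -, hj⟩ := (Nat.dvd_prime_pow Nat.prime_two).1 hd1
    rcases Nat.eq_zero_or_pos j with rfl | hj0
    · rw [hj, pow_zero]
    · exfalso
      apply hd3
      refine dvd_trans ?_ hd2
      rw [hj]
      exact dvd_pow_self 2 hj0.ne'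
  refine ⟨part1, part2, part34.1, fun hN => ⟨part34.2 hN, ?_⟩⟩
  obtain ⟨j, -, hj⟩ := (Nat.dvd_prime_pow Nat.prime_two).1 hLidx
  exact IsPGroup.of_card (n := j) hj

end Cfsg.Agent.Lib.Helper41
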